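import Cfsg.Agent.Lib.LB.Wt

/-! # The common fixed points of a graph automorphism and a Steinberg map in normal form -/

set_option autoImplicit false
set_option linter.unusedSectionVars false

namespace Cfsg.Lib.LB

open Finset Cfsg.Lib.Chev Cfsg.Lib.Chev.RootSys Cfsg.Lib.Chev.PreSys Cfsg.Lib.Chev.ChevSys
  Cfsg.Lib.Alg Equiv Cfsg.Lib.HB Cfsg.Lib.KO Cfsg.Lib.Root Subgroup Cfsg.Lib.Twisted Cfsg.Lib.AbS
open Cfsg.Lib.KI hiding Nrm

variable {ι Φ : Type} [Fintype ι] [DecidableEq ι] {R : RootSys ι Φ} {k : Type*} [Field k]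
  {G : Type*} [Group G] {C : ChevSys R k G} [Fintype Φ] {p l : ℕ}

theorem sl2_pow_sq (hl : l = 2 ∨ l = 3) {a b : k} (h : a * b = -l) :
    (xU a * xL b) ^ l ^ 2 = 1 := by
  obtain ⟨M, hM⟩ : ∃ M, M = (xU a * xL b).1 := ⟨_, rfl⟩
  have hM' : M = !![1 + a * b, a; b, 1] := by
    rw [hM, Matrix.SpecialLinearGroup.coe_mul]; simp
  have h1 : M * M = (2 - l : k) • M - 1 := by
    ext i j
    fin_cases i <;> fin_cases j <;> simp [hM', Matrix.mul_apply]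
    · linear_combination (1 + a * b) * h
    · linear_combination a * h
    · linear_combination b * h
    · linear_combination h
  refine Subtype.ext ?_
  rw [Matrix.SpecialLinearGroup.coe_pow, ← hM]
  rcases hl with rfl | rfl
  · rw [show 2 ^ 2 = 2 * 2 from rfl, pow_mul, sq M, h1]
    simp
  · have h2 : M ^ 3 = 1 := by
      rw [pow_three, h1, mul_sub, Matrix.mul_smul, h1, show (2 - (3 : ℕ) : k) = -1 by norm_num]
      simp
    rw [show 3 ^ 2 = 3 * 3 from rfl, pow_mul, h2]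
    simp

theorem x_pow_sq (hM : C.HMul) (hl : l = 2 ∨ l = 3) (r : Φ) {a b : k} (h : a * b = -l) :
    (C.x r a * C.x (R.neg r) b) ^ l ^ 2 = 1 := by
  obtain ⟨ψ, e1, e2⟩ := hM.exists_sl2 r
  rw [← e1, ← e2, ← map_mul, ← map_pow, sl2_pow_sq hl h, map_one]

theorem mem_Uw (hF : C.Faithful) {g n : G} {w : Perm Φ} (hn : C.NW n w) (hg : g ∈ C.U)
    (h : n * g * n⁻¹ ∈ C.V) : g ∈ C.Uw w := by
  obtain ⟨u, hu, v, hv, e⟩ := hn.exists_mul_Uw hg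
  obtain ⟨c, hc⟩ := hn.exists_acts
  have h1 : n * v * n⁻¹ ∈ C.V := hc.conj_mem (fun r hr => hr.2) hv
  have h2 := hF.eq_one_of_B_V (C.U_le_B hu) (by
    simpa [e, mul_assoc] using mul_mem h (inv_mem h1))
  rw [h2, one_mul, mul_right_inj] at e
  rwa [e]

theorem dec_unique (hF : C.Faithful) {ψ : MulAut G} {u n v : G} {w w' : Perm Φ} (hu : u ∈ C.U)
    (hn : C.NW n w) (hv : v ∈ C.Uw w) (h1 : ψ u ∈ C.U) (h2 : C.NW (ψ n) w') (h3 : ψ v ∈ C.U)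
    (h4 : ψ (n * v * n⁻¹) ∈ C.V) (htop : C.grp = ⊤)
    (h5 : (u * n * v)⁻¹ * ψ (u * n * v) ∈ center G) :
    w' = w ∧ ψ u = u ∧ n⁻¹ * ψ n ∈ center G ∧ ψ v = v := by
  obtain ⟨e1, e2, e3, e4⟩ := normal_form_unique hF h1 hu h2 (hn.mul (nw_of_mem_H
    ((hF.mem_center_iff htop).1 h5).1)) (mem_Uw hF h2 h3 (by simpa using h4))
    (by rwa [mul_one]) (by
      rw [← map_mul, ← map_mul, mul_assoc u (n * _), mul_assoc n, ← mem_center_iff.1 h5 v]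
      group)
  exact ⟨e1.trans (mul_one _), e2, by rwa [e3, inv_mul_cancel_left], e4⟩

variable (C p l) in
/-- a graph automorphism and a commuting Steinberg map in normal form -/
structure NF (θ : MulAut G) (ρ : Perm Φ) (e : Φ → kˣ) (π : Perm ι) (τ : MulAut G) (x : Perm Φ)
    (c : Φ → kˣ) (d : ℕ) : Prop extends Gph C p l θ ρ e where
  hπ : ∀ i, ρ (R.simple i) = R.simple (π i)
  ty : Ty R l π
  nrm' : Nrm C p τ x c fun _ => d
  d_pos : 0 < d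
  comm : Commute θ τ
  xW : x ∈ R.W
  xpos : ∀ r, R.IsPos r → Act ρ e r → R.IsPos (x r)

variable [Fact p.Prime] [CharP k p] [hl : Fact l.Prime] [IsAlgClosed k] {θ τ : MulAut G}
  {ρ x : Perm Φ} {e c : Φ → kˣ} {π : Perm ι} {d : ℕ}

theorem Gph.oP_inj (h : Gph C p l θ ρ e) {r : Φ} (hr : R.IsPos r) {t u : k}
    (e' : nP θ (dg l ρ r) (C.x r t) = nP θ (dg l ρ r) (C.x r u)) : t = u := by
  have := fun t => (h.lc_oP (gd_of (f := htL ι) (fun _ => isPos_iff_ht.2) hr.ht_pos)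
    (fun s hs => hs.trans_eq (ht_aut h.aut h.pos s).symm) (r := r) (s := r) (le_refl (R.ht r)) rfl t).1 rfl
  rw [← this t, e', this]

theorem Gph.oP_mem_U (h : Gph C p l θ ρ e) {g : G} (hg : g ∈ C.U) (n : ℕ) : nP θ n g ∈ C.U :=
  nP_mem (fun _ => h.nrm.mem_XS fun r => (h.pos r).2) hg n

namespace NF

variable (h : NF C p l θ ρ e π τ x c d)
include h

theorem op : NF C.op p l θ ρ (fun r => e (R.neg r)) π τ x (fun r => c (R.neg r)) d :=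
  ⟨h.toGph.op, h.hπ, h.ty, nrm_op h.nrm', h.d_pos, h.comm, h.xW, fun r h1 h2 =>
    h.xpos r h1 (h.toGph.act_neg.1 fun e => h2 (h.toGph.fix_neg.1 e))⟩

theorem l_cases : l = 2 ∨ l = 3 := h.ty.2.imp And.left And.left

theorem x_cases : x = 1 ∨ l = 3 ∧ ∃ a, π a = a ∧ e (R.simple a) ≠ 1 ∧ x = R.sref a :=
  h.toGph.w_cases h.hπ h.ty h.xW h.xpos (h.toGph.act_map h.nrm' h.comm)

theorem map_U {g : G} (hg : g ∈ C.U ⊓ fix θ) : τ g ∈ C.U :=
  h.toGph.gen_U (K := C.U.comap τ.toMonoidHom) (fun r h1 h2 t => by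
    rw [mem_comap, MulEquiv.coe_toMonoidHom, h.toGph.map_oP h.nrm' h.comm.symm, h.nrm'.x]
    exact h.toGph.oP_mem_U (C.x_mem_U (h.xpos r h1 h2) _) _) hg

theorem map_V {g : G} (hg : g ∈ C.V ⊓ fix θ) : τ g ∈ C.V :=
  op_U.le (h.op.map_U ⟨op_U.ge hg.1, hg.2⟩)

theorem oP_mem {r : Φ} (h1 : Act ρ e r) (h2 : x r = r) {g : G} (hg : g ∈ XR C r) (h3 : τ g = g) :
    nP θ (dg l ρ r) g ∈ fix τ ⊓ fix θ :=
  ⟨mem_fix.2 (by rw [h.toGph.map_oP h.nrm' h.comm.symm, h2, h3]), h.toGph.oP_fix h1 hg⟩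

theorem exists_ab {r : Φ} (h2 : x r = r) : ∃ a b : k, a ≠ 0 ∧ a * b = -l ∧ τ (C.x r a) = C.x r a ∧
    τ (C.x (R.neg r) b) = C.x (R.neg r) b := by
  obtain ⟨a, h3, h4⟩ := exists_root' (p := p) (c r) h.d_pos Polynomial.X_ne_zero
    (by simpa using Nat.one_lt_pow h.d_pos.ne' (Fact.out : p.Prime).one_lt)
  rw [Polynomial.eval_X] at h4
  refine ⟨a, -l / a, h4, mul_div_cancel₀ _ h4, by rw [h.nrm'.x, h2, h3], ?_⟩
  rw [h.nrm'.x, h.nrm'.neg, h2, eq_inv_of_mul_eq_one_right (h.nrm'.e_neg r), div_pow,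
    show (-l : k) ^ p ^ d = -l by
      rw [← iterateFrobenius_def, map_neg, map_natCast]]
  congr 1
  conv_rhs => rw [← h3]
  simp [div_eq_mul_inv, mul_assoc, mul_comm]

/-- The Bruhat step. -/
theorem bru {y : G} (h1 : y ∈ cfix θ) (h2 : y ∈ cfix τ) : y ∈ C.B ∨ ∃ z, z ^ l ^ 2 = 1 ∧
    z ∉ center G ∧ ∃ g₁ ∈ C.U ⊓ (fix τ ⊓ fix θ), ∃ g₂ ∈ C.U ⊓ (fix τ ⊓ fix θ),
      ∃ g₃ ∈ C.U ⊓ (fix τ ⊓ fix θ), z = g₁ * (y * g₂ * y⁻¹) * g₃ := by
  obtain ⟨u, hu, n, w, hn, v, hv, rfl⟩ := exists_normal_form (h.top.ge (mem_top y))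
  obtain ⟨cn, hc⟩ := hn.exists_acts
  have h3 : n * v * n⁻¹ ∈ C.V := hc.conj_mem (fun r hr => hr.2) hv
  have hv' := C.Uw_le_U w hv
  obtain ⟨-, e1, e2, e3⟩ := dec_unique h.F hu hn hv (h.nrm.mem_XS (fun r => (h.pos r).2) hu)
    (h.nrm.nw hn) (h.nrm.mem_XS (fun r => (h.pos r).2) hv')
    (h.nrm.mem_XS (fun r => (h.pos r).not.2) h3) h.top h1
  have h4 := commute_conj_iff.2 e2
  obtain ⟨e4, e5, e6, e7⟩ := dec_unique h.F hu hn hv (h.map_U ⟨hu, e1⟩) (h.nrm'.nw hn)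
    (h.map_U ⟨hv', e3⟩) (h.map_V ⟨h3, map_mem_fix h4 e3⟩) h.top h2
  have h5 := commute_conj_iff.2 e6
  rcases eq_or_ne w 1 with rfl | hw
  · exact .inl (mul_mem (mul_mem (C.U_le_B hu) (C.H_le_B hn.mem_H)) (C.U_le_B hv'))
  right
  have h6 := Nrm.one.conj (p := p) hc.inv
  rw [mul_one, mul_one] at h6
  have h7 : Commute θ (MulAut.conj n⁻¹) := by rw [map_inv]; exact h4.symm.inv_right
  obtain ⟨h8, h9⟩ := h.toGph.comm_e h6 h7
  obtain ⟨r, h10, h11, h12⟩ : ∃ r, R.IsPos r ∧ Act ρ e r ∧ ¬ R.IsPos (w⁻¹ r) := by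
    by_contra! h0
    obtain ⟨rfl, a, ha, h10, h11⟩ := (h.toGph.w_cases h.hπ h.ty (inv_mem hn.mem_W) h0
      (h.toGph.act_map h6 h7)).resolve_left (inv_ne_one.2 hw)
    have h12 := (h.toGph.fix_simple h.hπ).2 ha
    have h13 := h9 _ h12
    have h14 := h.nrm.e_neg (R.simple a)
    have h15 := h.toGph.e_pow h12
    rw [h11, sref_simple] at h13
    rw [h13, Pi.zero_apply, pow_zero, pow_one] at h14
    rw [pow_three, h14, mul_one] at h15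
    exact h10 h15
  obtain ⟨δ, h13, h14, h15, h16⟩ := h.toGph.exists_fixed h.hπ h.x_cases
    (h.toGph.act_map h.nrm' h.comm) h10 h11
  replace h16 := h16 _ hc.inv.aut h8 (Commute.inv_right (mul_inv_eq_iff_eq_mul.1 e4)) h12
  obtain ⟨a, b, h17, h18, h19, h20⟩ := h.exists_ab h15
  have hb : C.x (R.neg δ) b ∈ XR C δ := C.x_mem (.inr rfl) b
  have h21 := h.oP_mem h14 h15 (x_mem_XR δ a) h19
  have h22 := h.oP_mem h14 h15 hb h20
  have h23 := h.toGph.oP_mem_U (C.x_mem_U h13 a) (dg l ρ δ)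
  have h24 : MulAut.conj n⁻¹ (nP θ (dg l ρ δ) (C.x (R.neg δ) b)) ∈ C.U ⊓ (fix τ ⊓ fix θ) :=
    ⟨by
      rw [nP_map h7.symm, h6.x]
      exact h.toGph.oP_mem_U (C.x_mem_U (by rwa [h6.neg, isPos_neg_iff]) _) _,
    map_mem_fix (by rw [map_inv]; exact h5.inv_left) h22.1, map_mem_fix h7.symm h22.2⟩
  refine ⟨nP θ (dg l ρ δ) (C.x δ a * C.x (R.neg δ) b), ?_, fun h25 => h17 ?_, _,
    mul_mem ⟨h23, h21⟩ (inv_mem ⟨hu, e5, e1⟩), _, mul_mem (mul_mem (inv_mem ⟨hv', e7, e3⟩) h24)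
      ⟨hv', e7, e3⟩, u, ⟨hu, e5, e1⟩, ?_⟩
  · rw [← nP_pow (h.toGph.hc δ) (mul_mem (x_mem_XR δ a) hb), x_pow_sq h.hM h.l_cases δ h18]
    simpa using nP_mem (K := ⊥) (by simp) (one_mem _) _
  · rw [nP_mul (h.toGph.hc δ) (x_mem_XR δ a) hb le_rfl] at h25
    have h26 := ((h.F.mem_center_iff h.top).1 h25).1
    have h27 : nP θ (dg l ρ δ) (C.x (R.neg δ) b) ∈ C.V := op_U.le (h.toGph.op.oP_mem_U
      (C.op.x_mem_U h13 b) _)
    rw [h.F.eq_one_of_B_V (by simpa using mul_mem (inv_mem (C.U_le_B h23)) (C.H_le_B h26)) h27,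
      mul_one] at h26
    refine h.toGph.oP_inj h13 ((h.F.eq_one_of_U_H h23 h26).trans ?_)
    simpa using (nP_mem (K := ⊥) (by simp) (one_mem _) _ : _ = _).symm
  · rw [nP_mul (h.toGph.hc δ) (x_mem_XR δ a) hb le_rfl]
    simp [mul_assoc]

end NF

end Cfsg.Lib.LB
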