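import Cfsg.Agent.Lib.HB.D4

/-! # A finite check in the root system `D₄` -/

set_option autoImplicit false

namespace Cfsg.Lib.LB

open Cfsg.Lib.HB.D4

def Ga (U : V → V) (x : V) : Prop := (∀ r ∈ E, (dot x (U r) - dot x r) % 3 = 0) →
  (∃ r ∈ E, dot x r % 3 ≠ 0) → (∀ r ∈ P, dot x r % 3 = 0 → U r ∈ P) →
    (∀ r ∈ L, dot (1, 13, 169, 2197) (add (add r (U r)) (U (U r))) ≠ 0) ∧
      ((∀ r ∈ L, dot x r % 3 = 0 → U r = r) ∨ ∃ b ∈ P, dot x b % 3 = 0 ∧ B b (U b) = 0 ∧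
        B b (U (U b)) = 0 ∧ ∀ r ∈ L, dot x r % 3 = 0 → r ∈ six b (U b) (U (U b)))

instance decGa (U : V → V) (x : V) : Decidable (Ga U x) := by unfold Ga; infer_instance

theorem chk2 : ∀ b ∈ L, ∀ a ∈ L, B a b = -1 → ∀ c ∈ L, B c b = -1 → B a c = 0 → ∀ d ∈ L,
    B d b = -1 → B a d = 0 → B c d = 0 → (a.2.2.2 + c.2.2.2) % 2 = 1 →
    (∀ r ∈ E, lin a b c d (lin a b c d (lin a b c d r)) = r) →
      ∀ x ∈ T, ∀ y ∈ T, ∀ z ∈ T, ∀ t ∈ T, Ga (lin a b c d) (x, y, z, t) := by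
  decide +kernel

end Cfsg.Lib.LB
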