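import Cfsg.Agent.Lib.LB.Typ
import Cfsg.Agent.Lib.KO.ExtEx
import Cfsg.Agent.Lib.KO.RepM
import Cfsg.Agent.Lib.Chev.ClassCount
import Cfsg.Prelude.Def_StandardType

/-! # Local balance in the tabulated Chevalley groups -/

set_option autoImplicit false
set_option linter.unusedSectionVars false

namespace Cfsg.Lib.LB

open Finset Cfsg.Lie Cfsg.Lib.Chev Cfsg.Lib.Chev.RootSys Cfsg.Lib.Chev.PreSys Cfsg.Lib.Chev.ChevSys
  Cfsg.Lib.Alg Equiv Cfsg.Lib.HB Cfsg.Lib.KO Subgroup Cfsg.Lib.Twisted Cfsg.Lib.St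
open Cfsg.Lib.KI hiding Nrm Dat

variable {p l m : ℕ} [Fact p.Prime] [hl : Fact l.Prime] {F : Type*} [Field F] [Fintype F] [CharP F p]
  {D : ChevalleyDatum} {c : Cert} (h : Checked D c) (hD : D ∈ types)
  {X : AlgCover (trivSym h.R) p (fun _ => m) (D.group F)} (hm : 0 < m)
  (hF : Fintype.card F = p ^ m)
include hD

theorem rep_mod (hM : Mod h X (.refl _)) {E : EmbData} (hE : embChk D c chevE8 certE8 E = true)
    (hL : h.R.Laced) : Rep X.C p := by
  obtain ⟨ρ, π, ε, hE, -⟩ := h.exists_emb checkedE8 hE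
  have h0 : checkedE8.R.kerChr X.k = ⊥ := (kerDataE8 _).kerChr_eq_bot
  obtain ⟨φ', h'⟩ := h.exists_alg_of_emb X.k p X.alg_k hD _ h0 hE
  refine Rep.of_laced ?_ X.alg h' (hM.1 ▸ h.anti) h.anti hL
  obtain ⟨ψ, hψ⟩ := h.exists_hom_of_emb hD X.k (checkedE8.strongComm _)
    (checkedE8.adjoint _).hMul hE
  have := Checked.nonempty_rank hD
  obtain ⟨h1, -⟩ := h'.faithful.injective_of_emb h'.top (h.conn hD) h'.hMul (checkedE8.faithful _)
    (checkedE8.adjoint _).hMul (by rw [← MonoidHom.ker_eq_bot_iff,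
      (checkedE8.adjoint _).ker_torus (checkedE8.faithful _), h0]) hE
    (φ := ψ) fun r t => by rw [Checked.stSys_x, hψ]
  have h3 : ∀ r t, ((Units.coeHom _).comp ψ) ((h.stSys X.k hD).x r t) =
      checkedE8.T.xA X.k (π r) (ε r * t) := fun r t => by
    rw [MonoidHom.comp_apply, Checked.stSys_x, hψ, ← checkedE8.x_eq, ← checkedE8.coe_x]; rfl
  refine ⟨_, _, _, (Units.coeHom _).comp ψ, Units.val_injective.comp h1,
    fun _ r _ => ⟨fun a b => ?_, fun t => ?_⟩⟩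
  · simp only [h3]
    exact checkedE8.T.xA_poly _ _ a b
  · rw [h3, h3]
    refine .trans ?_ (checkedE8.T.xA_map (frobenius X.k p) _ _).symm
    rw [map_mul, map_intCast, frobenius_def]

include hm hF

theorem ext_chk {μ : Type} [Fintype μ] [DecidableEq μ] {d : ℕ} {pos : μ → _} {v Z : μ → _ → ℤ}
    {W : _ → _ → ℤ} (hK : h.R.KerData d pos v W Z)
    (hγ : ∀ π ∈ h.nodes F, π ≠ 1 → ∃ a ν, SA X.C p ν π a) : Ext X := by
  have := Checked.nonempty_rank hD
  have := X.finite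
  choose a ha using fun π : h.nodes F => (em (π.1 = 1)).elim
    (fun e => e ▸ ⟨0, 1, SA.one⟩) (hγ π π.2)
  refine ext_untw hm ha Subtype.val_injective (le_of_out (.refl _)
    (h.card_out hD (Nat.card_eq_fintype_card.trans hF))
    (card_le_ker X hm hK (Nat.gcd_dvd_left _ _) (Nat.gcd_dvd_right _ _)) ?_)
  rw [hK.card_kerChr_finite, Nat.card_eq_fintype_card (α := F), hF]
  ring

variable (hM : Mod h X (.refl _)) {α : MulAut (D.group F)}
include hM

theorem idiag_of_ind {s : X.G} (h1 : Ind X (MulAut.conj s) α) :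
    D.IsInnerDiagonalAutOn (D.group F) α := by
  have := Checked.nonempty_rank hD
  obtain ⟨-, j, hj⟩ := hM
  have h2 := commute_conj_iff.1 h1.1
  obtain ⟨t, ht, e⟩ := X.alg.lang_H hm _ ((X.alg.faithful.mem_center_iff X.alg.top).1 h2).1
  rw [← σ_eq hm] at e
  have h3 : s * t⁻¹ ∈ fix X.σ := by
    rw [mem_fix, map_mul, map_inv, ← mul_inv_cancel_left s (X.σ s), ← e]
    rw [← e] at h2
    rw [← mul_inv_cancel_left t (X.σ t), mem_center_iff.1 h2 t]
    group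
  have h4 := (ind_conj ⟨_, h3⟩).inv.mul h1
  rw [← map_inv, ← map_mul, mul_inv_rev, inv_inv, inv_mul_cancel_right] at h4
  obtain ⟨a, ha⟩ := X.C.exists_acts_of_mem_H ht
  have h5 : ∀ r, ∃ u : Fˣ, j u = h.R.chr a r ∧ ∀ v, ((MulAut.conj (X.π ⟨_, h3⟩))⁻¹ * α)
      ((h.gsys F).x r v) = (h.gsys F).x r (u * v) := fun r => by
    obtain ⟨h5, -⟩ := h4.2 ⟨_, (hj r 1).1⟩
    rw [MulAut.conj_apply, ha.conj, mem_fix, σ_eq hm, X.alg.pow_x, map_one, mul_one, ← hF,
      ← Nat.card_eq_fintype_card] at h5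
    obtain ⟨u, hu⟩ := (pow_card_eq_iff j _).1 (X.alg.faithful.x_inj h5)
    refine ⟨Units.mk0 u fun e => Units.ne_zero _ (by rw [← hu, e, map_zero]), hu, fun v => ?_⟩
    obtain ⟨h6, e1⟩ := hj r v
    obtain ⟨h7, e2⟩ := h4.2 ⟨_, h6⟩
    obtain ⟨h8, e3⟩ := hj r (u * v)
    exact (congrArg _ e1.symm).trans (e2.symm.trans (.trans (congrArg X.π (Subtype.ext (by
      simp only [MulAut.conj_apply, ha.conj, map_mul, hu, Perm.one_apply]))) e3))
  choose u h5 h6 using h5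
  obtain ⟨χ, h7, h8⟩ := h.isDiagonalAut_iff.2 ⟨fun i => u (h.R.simple i), fun i t => h6 _ t,
    fun i t => (h6 _ t).trans (by
      rw [show u (h.R.neg (h.R.simple i)) = (u (h.R.simple i))⁻¹ from
        eq_inv_of_mul_eq_one_right (Units.ext (j.injective (by
          rw [Units.val_mul, map_mul, h5, h5, ← Units.val_mul, ha.neg]
          simp)))]
      rfl)⟩
  refine ⟨_, (X.π ⟨_, h3⟩).2, χ, h7, fun g => ?_⟩
  rw [mul_assoc _ (D.charDiag F χ), mul_assoc _ _ (D.charDiag F _), ← h8, ← Units.val_mul,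
    ← Units.val_mul]
  congr 1
  simp [mul_assoc]

theorem exists_field (n : ℕ) : ∃ φ, IsEntrywiseFieldAutOn (D.group F) φ ∧ Ind X (X.φ ^ n) φ := by
  have := Checked.nonempty_rank hD
  obtain ⟨-, j, hj⟩ := hM
  obtain ⟨φ, h1⟩ := exists_ind (D := X) (β := X.φ ^ n) (σ_eq (D := X) hm ▸ Commute.pow_pow_self _ _ _)
  refine ⟨φ, ⟨iterateFrobeniusEquiv F p n, fun g => ?_⟩, h1⟩
  suffices H : ∀ r t, (φ ((h.gsys F).x r t)).1 = Matrix.GeneralLinearGroup.map
      (iterateFrobenius F p n) ((h.gsys F).x r t).1 from congrArg Units.val (DFunLike.congr_fun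
    (hom_ext_simple (h.gsys_grp F) (φ := (D.group F).subtype.comp φ.toMonoidHom)
    (ψ := (Matrix.GeneralLinearGroup.map (iterateFrobenius F p n)).comp (D.group F).subtype)
    (fun _ => H _) fun _ => H _) g)
  intro r t
  obtain ⟨h6, e1⟩ := hj r t
  obtain ⟨h7, e2⟩ := h1.2 ⟨_, h6⟩
  obtain ⟨h8, e3⟩ := hj r (t ^ p ^ n)
  refine (congrArg Subtype.val ((congrArg φ e1.symm).trans (e2.symm.trans (.trans
    (congrArg X.π (Subtype.ext (by simp only [X.alg.pow_x, map_pow]))) e3)))).trans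
      (Units.ext ((h.coe_gx r _).trans ?_))
  rw [h.x_eq, ← iterateFrobenius_def, ← h.T.xA_map, ← h.x_eq, ← h.coe_gx]
  rfl

theorem chev_main (ext : Ext X) (hlp : l ≠ p) (hR : l ≠ 2 → l ≠ 3 → Rig h.R l)
    (hG : HG X.C p l (X.φ ^ m)) {A : Subgroup (MulAut (D.group F))} (hA : ∀ k, MulAut.conj k ∈ A)
    (hα : orderOf α = l) (hn : ¬ D.IsInnerDiagonalAutOn (D.group F) α) :
    pPrimeCore l ↥(A ⊓ centralizer {α}) ≠ ⊥ ↔
      ((∃ γ φ : MulAut ↥(D.group F), D.IsInnerDiagonalAutOn (D.group F) γ ∧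
        IsEntrywiseFieldAutOn (D.group F) φ ∧ α = φ.trans γ) ∧
        Nat.Coprime l (Nat.card ↥(MonoidHom.eqLocus α.toMonoidHom (MonoidHom.id _)))) := by
  have := Checked.nonempty_rank hD
  have := X.finite
  have hZ := center_eq_bot_of_adjoint (h.gsys_faithful F) (h.gsys_adjoint F) (h.gsys_grp F)
  obtain ⟨h1, h2, h3⟩ := main hZ hm ext hlp hα (fun s e => hn (idiag_of_ind h hD hm hF hM e)) hR hG
  refine Bal.core_ne_bot_iff hZ hA h1 h2 fun e => ?_
  obtain ⟨-, -, s, j, h4⟩ := h3 e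
  obtain ⟨φ, h5, h6⟩ := exists_field h hD hm hF hM j
  exact ⟨α * φ⁻¹, φ, idiag_of_ind h hD hm hF hM (by simpa using h4.mul h6.inv), h5,
    (inv_mul_cancel_right α φ).symm⟩

omit hD hM

theorem ext_G2' : ∃ X : AlgCover (trivSym RG2) p (fun _ => m) (chevG2.group F),
    Mod checkedG2 X (.refl _) ∧ Ext X := by
  obtain ⟨φ, h⟩ := alg_sysG checkedG2 (by simp) (alg_bar p) (kerDataG2 _).kerChr_eq_bot
  obtain ⟨X, h1, h2⟩ := cover_chk checkedG2 (by simp) h hm hF (.refl _)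
  refine ⟨X, h1, ext_chk _ (by simp) hm hF (kerDataG2 _) fun π h3 h4 => ?_⟩
  have h5 := (nodesG2 _).2 ⟨π, h3, rfl⟩
  rw [ringChar.eq F p] at h5
  obtain rfl : p = 3 := by_contra fun e => h4 (toL_injective (by simpa [e, toL_one] using! h5))
  obtain rfl : π = πG2 := (by decide : ∀ π : Perm (Fin 2), π ≠ 1 → π = πG2) π h4
  obtain ⟨α, hα⟩ := Cfsg.Agent.S1099.result
    (fun x => surjective_frobenius (AlgebraicClosure (ZMod 3)) 3 x)
  refine ⟨_, h2 _ _ (exists_sa_sysG checkedG2 h symG2 (a := (![1, 0] : Fin 2 → ℕ))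
    (q := fun i => 1 - i) (ψ := fun i t => if i = 0 then t ^ 3 else t)
    (by change ∀ i : Fin 2, (πG2 i).val = _; decide)
    (by change ∀ i : Fin 2, _; intro i t; fin_cases i <;> simp) (by rw [symG2_π]; decide)
    (by change ∀ i : Fin 2, _ + (![1, 0] : Fin 2 → ℕ) (πG2 i) = _; decide) (α := α)
    fun g i t hi => ?_)⟩
  change i < 2 at hi
  interval_cases i
  exacts [⟨(hα g t).1, (hα g t).2.2.1⟩, ⟨(hα g t).2.1, (hα g t).2.2.2⟩]

theorem ext_B2 : ∃ X : AlgCover (trivSym checkedB2.R) p (fun _ => m) (chevB2.group F),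
    Mod checkedB2 X (.refl _) ∧ Ext X := by
  by_cases hp : p = 2
  · subst hp
    obtain ⟨φ, h⟩ := alg_sysG checkedB2 (by simp) (alg_bar 2) (checkedB2.kerChr_two (by simp) _)
    obtain ⟨X, h1, h2⟩ := cover_chk checkedB2 (by simp) h hm hF (.refl _)
    refine ⟨X, h1, ext_chk _ (by simp) hm hF (kerDataB2 _) fun π _ h4 => ?_⟩
    obtain rfl : π = πG2 := (by decide : ∀ π : Perm (Fin 2), π ≠ 1 → π = πG2) π h4
    obtain ⟨α, hα⟩ := Cfsg.Agent.S1098.result
      (fun x => surjective_frobenius (AlgebraicClosure (ZMod 2)) 2 x)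
      (chevB2, [(1, 2), (0, 1)]) (by simp)
    exact ⟨_, h2 _ _ (exists_sa_sysG checkedB2 h (Twisted.symOf checkedB2 πG2 isB2.w isB2.w
      (fun _ => (0 : Fin 1)) (by decide +kernel) (by decide +kernel) (by decide +kernel)
      (fun _ => rfl) (fun k => ⟨(0 : Fin 2), Subsingleton.elim _ _⟩)
      (by change ∀ i j : Fin 2, _ → i = j ∨ πG2 i = j ∨ πG2 (πG2 i) = j; decide))
      (a := (![1, 0] : Fin 2 → ℕ)) (by change ∀ i : Fin 2, (πG2 i).val = _; decide)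
      (by change ∀ i : Fin 2, _; intro i t; fin_cases i <;> simp) (show πG2 ^ 2 = 1 by decide)
      (by change ∀ i : Fin 2, _ + (![1, 0] : Fin 2 → ℕ) (πG2 i) = _; decide) hα)⟩
  obtain ⟨φ, h⟩ := algB2 _ p (alg_bar p)
  obtain ⟨X, h1, -⟩ := cover_chk checkedB2 (by simp) h hm hF (.refl _)
  refine ⟨X, h1, ext_chk _ (by simp) hm hF (kerDataB2 _) fun π h3 h4 => (h4 ?_).elim⟩
  have h5 := (nodesB2 _).2 ⟨π, h3, rfl⟩
  rw [ringChar.eq F p] at h5
  exact toL_injective (by simpa [hp, toL_one] using! h5)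

theorem ext_D4 : ∃ X : AlgCover (trivSym RD4) p (fun _ => m) (chevD4.group F),
    Mod checkedD4 X (.refl _) ∧ Ext X := by
  obtain ⟨φ, h⟩ := algD4 _ p (alg_bar p)
  obtain ⟨X, h1, h2⟩ := cover_chk checkedD4 (by simp) h hm hF (.refl _)
  have key : ∀ π : Perm (Fin 4), toL π ∈ [List.range 4, [0, 1, 3, 2], [2, 1, 0, 3], [2, 1, 3, 0],
      [3, 1, 0, 2], [3, 1, 2, 0]] → ∀ i j, RD4.A (π i) (π j) = RD4.A i j := by
    rw [RD4_A]
    decide +kernel
  exact ⟨X, h1, ext_chk _ (by simp) hm hF (kerDataD4 _) fun π h3 _ => ⟨_, h2 _ _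
    (exists_graph (R := RD4) h checkedD4.anti (laced_of_ln (IsD4.ln RD4_A))
      (key π ((nodesD4 _).2 ⟨π, h3, rfl⟩)))⟩⟩

end Cfsg.Lib.LB
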