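import Cfsg.Agent.Lib.LB.Cv

/-! # Inner-diagonal automorphisms in type `D₄` -/

set_option autoImplicit false
set_option linter.unusedSectionVars false

namespace Cfsg.Lib.LB

open Finset Cfsg.Lie Cfsg.Lib.Chev Cfsg.Lib.Chev.RootSys Cfsg.Lib.Chev.PreSys Cfsg.Lib.Chev.ChevSys
  Cfsg.Lib.Alg Equiv Cfsg.Lib.HB Cfsg.Lib.KO Subgroup Cfsg.Lib.Twisted Cfsg.Lib.St
open Cfsg.Lib.KI hiding Nrm Dat

variable {p l m : ℕ} [Fact p.Prime] {Y : Type*} [Group Y]
  {X : AlgCover (trivSym RD4) p (fun _ => m) Y}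

theorem tri_center {ν : MulAut X.G} (hν : SA X.C p ν πD4 0) {z : X.G} (hz : z ∈ center X.G) :
    z * z = 1 ∧ z * ν z * ν (ν z) = 1 := by
  obtain ⟨ρ, e, a, h1, -, h2, -, h3, -⟩ := SA.nrm X.alg.faithful (a := 0) hν
  have h4 : ∀ c, ν (X.alg.tor c) = X.alg.tor (c ∘ ⇑πD4⁻¹) := fun c => by
    induction c using Pi.mulSingle_induction with
    | one => simp
    | mul a b ha hb => rw [map_mul, map_mul, ha, hb, ← map_mul]; rfl
    | mulSingle i t =>
      rw [HMul.torus_mulSingle, h1.h' X.alg.hMul, h2, h3, ← X.alg.hMul.torus_mulSingle]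
      congr 1
      funext j
      obtain ⟨j, rfl⟩ := πD4.surjective j
      by_cases h : j = i <;> simp [h]
  obtain ⟨c, hc, rfl⟩ := (X.alg.hMul.center_eq X.alg.faithful X.alg.top).le hz
  obtain ⟨h5, h6, h7⟩ := ker_D4 (M := Additive X.kˣ) c (mem_kerChr.1 hc)
  replace h6 : c 0 * c 2 * c 3 = 1 := h6
  replace h7 : c 1 = 1 := h7
  simp only [h4, ← map_mul, ← map_one X.alg.tor]
  refine ⟨congrArg _ (funext fun i => (sq _).symm.trans (congrFun h5 i)), congrArg _ (funext fun i => ?_)⟩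
  fin_cases i
  exacts [(mul_right_comm (c 0) (c 3) (c 2)).trans h6, show c 1 * c 1 * c 1 = 1 by simp [h7],
    (congrArg (· * c 3) (mul_comm (c 2) (c 0))).trans h6,
    (show c 3 * c 2 * c 0 = c 0 * c 2 * c 3 by ac_rfl).trans h6]

theorem eq_one_of_ind (hm : 0 < m) (ext : Ext X) (hT : X.T.Anti) {M : Type*} [Group M]
    (hM : ∀ a b : M, a * b = b * a) {χ : MulAut Y →* DihedralGroup 3 × M}
    (h1 : Function.Surjective χ) (h2 : ∀ y, χ (MulAut.conj y) = 1) {s : X.G} {α : MulAut Y}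
    (h : Ind X (MulAut.conj s) α) : χ α = 1 := by
  obtain ⟨ν, hν⟩ := exists_graph X.alg hT (laced_of_ln (IsD4.ln RD4_A)) (π := πD4)
    (by rw [RD4_A]; decide)
  have h3 : ∀ {s α}, Ind X (MulAut.conj s) α → X.σ s = s → χ α = 1 := fun h e =>
    h.unique (ind_conj ⟨_, e⟩) ▸ h2 _
  have h4 : ∀ {s α}, Ind X (MulAut.conj s) α → χ α * χ α = 1 := fun {s α} h => by
    have h4 := commute_conj_iff.1 h.1
    refine map_mul χ α α ▸ h3 (map_mul MulAut.conj s s ▸ h.mul h) ?_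
    rw [map_mul, ← mul_inv_cancel_left s (X.σ s), Commute.mul_mul_mul_comm
      (mem_center_iff.1 h4 s).symm, (tri_center hν h4).1, mul_one]
  have h5 : ∀ {s α β γ}, Ind X (MulAut.conj s) α → Ind X β γ →
      Ind X (MulAut.conj (β s)) (γ * α * γ⁻¹) := fun {s α β γ} h h' => by
    convert (h'.mul h).mul h'.inv using 1
    ext
    simp
  refine Prod.ext ?_ ?_
  · obtain ⟨γ, e⟩ := h1 (.r 1, 1)
    obtain ⟨β, -, h6⟩ := ext γ
    have h7 := congrArg Prod.fst (h4 (map_mul MulAut.conj s _ ▸ h.mul (h5 h h6)))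
    have h8 := congrArg Prod.fst (h4 h)
    simp only [map_mul, map_inv, e, Prod.fst_mul, Prod.fst_inv, Prod.fst_one] at h7 h8 ⊢
    generalize (χ α).1 = d at *
    revert d
    decide
  have h6 : Commute ν X.σ := σ_eq (D := X) hm ▸ zpow_natCast X.φ m ▸ hν.comm_frob X.alg m
  obtain ⟨γ, h7⟩ := exists_ind h6
  have h8 := commute_conj_iff.1 h.1
  have h9 := congrArg Prod.snd (h3 (s := s * ν s * ν (ν s)) (by
    simpa only [map_mul] using (h.mul (h5 h h7)).mul (h5 (h5 h h7) h7)) (by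
      have h9 : ∀ g, X.σ (ν g) = ν (X.σ g) := fun g => (DFunLike.congr_fun h6.eq g).symm
      rw [map_mul, map_mul, h9, h9, h9, ← mul_inv_cancel_left s (X.σ s)]
      generalize s⁻¹ * X.σ s = z at h8
      rw [map_mul, map_mul, Commute.mul_mul_mul_comm (mem_center_iff.1 h8 _).symm,
        Commute.mul_mul_mul_comm (mem_center_iff.1 (mul_mem h8 (map_mem_center ν h8)) _).symm,
        (tri_center hν h8).2, mul_one]))
  have h10 := congrArg Prod.snd (h4 h)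
  simp only [map_mul, map_inv, Prod.snd_mul, Prod.snd_inv, hM (χ γ).2, mul_inv_cancel_right,
    Prod.snd_one] at h9 h10
  rwa [h10, one_mul] at h9

theorem Ext.congr {ι Φ κ : Type} [Fintype ι] [DecidableEq ι] {R : RootSys ι Φ} [Fintype Φ]
    {Y0 : Sym R κ} {m : ι → ℕ} {X : AlgCover Y0 p m Y} (h : Ext X) {Y' : Type*} [Group Y']
    (e : Y' ≃* Y) : Ext (X.congr e) := fun α =>
  let ⟨β, h1, h2, h3⟩ := h (MulAut.congr e α)
  ⟨β, h1, h2, fun y => (h3 y).imp fun _ e' => e.symm_apply_eq.2 e'⟩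

theorem main_D4 [hl : Fact l.Prime] {F : Type*} [Field F] [Fintype F] [CharP F p]
    (e : Y ≃* chevD4.group F) (hlp : l ≠ p) {M : Type*} [Group M]
    (hM : ∀ a b : M, a * b = b * a) {χ : MulAut Y →* DihedralGroup 3 × M}
    (h1 : Function.Surjective χ) (h2 : ∀ y, χ (MulAut.conj y) = 1) (hZ : center Y = ⊥)
    {α : MulAut Y} (hα : orderOf α = l) (h : χ α ≠ 1) :
    In Y ⊓ centralizer {α} ≠ ⊥ ∧ (l ∣ Nat.card ↥(In Y ⊓ centralizer {α}) → Bal.Good l (In Y) α) ∧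
      (¬ l ∣ Nat.card ↥(In Y ⊓ centralizer {α}) → l ≠ 2 ∧ l ≠ 3) := by
  obtain ⟨m, hm, hF⟩ := exists_card_eq (p := p) F
  obtain ⟨X, h3, h4⟩ := ext_D4 hm (Nat.card_eq_fintype_card.symm.trans hF)
  replace h4 := Ext.congr h4 e
  obtain ⟨h5, h6, h7⟩ := main hZ hm h4 hlp hα
    (fun s e => h (eq_one_of_ind hm h4 (h3.1 ▸ checkedD4.anti) hM h1 h2 e))
    (fun e e' => rig_D4 (hl.out.odd_of_ne_two e) ((Nat.coprime_primes hl.out Nat.prime_three).2 e')
      RD4_A) (hg_D4 X.alg X.conn RD4_A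
      (rep_mod _ (by simp) h3 embD4E8_chk (laced_of_ln (IsD4.ln RD4_A))) hlp hm)
  exact ⟨h5, h6, fun e => ⟨(h7 e).1, (h7 e).2.1⟩⟩

end Cfsg.Lib.LB
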