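import Cfsg.Agent.Lib.LB.Ker

/-! # Local balance in the algebraic group -/

set_option autoImplicit false
set_option linter.unusedSectionVars false

namespace Cfsg.Lib.LB

open Finset Cfsg.Lib.Chev Cfsg.Lib.Chev.RootSys Cfsg.Lib.Chev.PreSys Cfsg.Lib.Chev.ChevSys
  Cfsg.Lib.Alg Equiv Cfsg.Lib.HB Cfsg.Lib.KO Cfsg.Lib.Root Subgroup Cfsg.Lib.Twisted Cfsg.Lib.AbS
open Cfsg.Lib.KI hiding Nrm Dat

variable {ι Φ : Type} [Fintype ι] [DecidableEq ι] {R : RootSys ι Φ} {k : Type*} [Field k]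
  {G : Type*} [Group G] {C : ChevSys R k G} [Fintype Φ] {p l m : ℕ} {φ σ β β' : MulAut G}
  {μ μ' : ℤ}

variable (φ) in
/-- `β` is the product of an inner automorphism and a power of the Frobenius map -/
def Fr (β : MulAut G) (μ : ℤ) : Prop := ∃ s, β = MulAut.conj s * φ ^ μ

theorem Fr.frob (μ : ℤ) : Fr φ (φ ^ μ) μ := ⟨1, by simp⟩

theorem Fr.mul (h : Fr φ β μ) (h' : Fr φ β' μ') : Fr φ (β * β') (μ + μ') := by
  obtain ⟨s, rfl⟩ := h
  obtain ⟨s', rfl⟩ := h'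
  exact ⟨_, by rw [KO.conj_mul_conj, zpow_add]⟩

theorem Fr.zpow (h : Fr φ β μ) (n : ℤ) : Fr φ (β ^ n) (μ * n) := by
  have h1 : Fr φ β⁻¹ (-μ) := h.elim fun s e => ⟨_, by rw [e, conj_mul_inv, zpow_neg]⟩
  induction n using Int.induction_on with
  | zero => simpa using Fr.frob 0
  | succ n ih => simpa only [zpow_add_one, mul_add_one] using ih.mul h
  | pred n ih => simpa only [zpow_sub_one, mul_sub_one, ← sub_eq_add_neg] using ih.mul h1

variable [hp : Fact p.Prime] [CharP k p] [IsAlgClosed k] [hl : Fact l.Prime]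

variable (C p l) in
/-- the two properties of the centraliser of `β` that give local balance -/
structure GA (σ β : MulAut G) : Prop where
  inn : ∀ N, Adm l σ β N → N ≤ center G
  ker : ∀ β' π a, Dg C p β' π a → Commute β' σ → Commute β' β →
    (∀ u ∈ fix σ ⊓ fix β, u⁻¹ * β' u ∈ center G) → β' ^ l ∈ zpowers σ

variable {T : ChevTab R} (h : C.Alg T p φ) (hc : R.Conn) [Nonempty ι] {π : Perm ι} {a : ι → ℤ}
include h hc

theorem ga_graph (hm : 0 < m) (h1 : Dg C p β π a) (h2 : β ^ l = 1) (h3 : Commute β (φ ^ m))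
    (hG : ∀ s d, 0 < d → Commute β (MulAut.conj s * φ ^ d) → GP p l β (MulAut.conj s * φ ^ d))
    (hπ : ∀ π' : Perm ι, (∀ i j, R.A (π' i) (π' j) = 0 ↔ R.A i j = 0) → Commute π' π →
      ∃ j : ℕ, π' * π ^ j = 1) : GA C p l (φ ^ m) β := by
  have h4 := hG 1 m hm (by simpa using h3)
  rw [map_one, one_mul] at h4
  refine ⟨h4.inn, fun β' π' a' h5 h6 h7 h8 => ?_⟩
  obtain ⟨j, hj⟩ := hπ π' (h5.bond h) ((h5.mul h1).unique h (h7 ▸ h1.mul h5)).1
  obtain ⟨s, ν, h9, e⟩ := hj ▸ h5.mul (h1.pow j)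
  obtain ⟨μ, h10⟩ : ∃ μ, Fr φ (β' * β ^ j) μ :=
    ⟨_, s, by rw [e, h9.eq_frob h hc (Classical.arbitrary ι)]⟩
  let B := centralizer {φ ^ m} ⊓ centralizer {β} ⊓
    fixingSubgroup (MulAut G) {u | u ∈ fix (φ ^ m) ⊓ fix β ∧ PE p u}
  have hB : ∀ γ, γ ∈ B ↔ Commute γ (φ ^ m) ∧ Commute γ β ∧
      ∀ u ∈ fix (φ ^ m) ⊓ fix β, PE p u → γ u = u := fun γ => by
    simp only [B, Subgroup.mem_inf, mem_centralizer_singleton_iff, mem_fixingSubgroup_iff,
      Set.mem_ofPred_eq, and_imp, and_assoc]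
    rfl
  have h11 : ∀ γ ∈ B, Fr φ γ 0 → γ = 1 := by
    rintro _ h11 ⟨s, rfl⟩
    rw [zpow_zero, mul_one] at h11 ⊢
    obtain ⟨e1, e2, e3⟩ := (hB _).1 h11
    exact conj_eq_one_iff'.2 (h4.cen s (commute_conj_iff.1 e2) (commute_conj_iff.1 e1) e3)
  have h12 : φ ^ (m : ℤ) ∈ B :=
    zpow_natCast φ m ▸ (hB _).2 ⟨.refl _, h3.symm, fun u hu _ => hu.1⟩
  have h13 : β' * β ^ j ∈ B := mul_mem ((hB _).2 ⟨h6, h7, fun u hu e => eq_of_center h
    e.choose_spec (h8 u hu)⟩) (pow_mem ((hB _).2 ⟨h3, .refl _, fun u hu _ => hu.2⟩) j)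
  have h14 := (h10.zpow (Int.gcdA μ m)).mul ((Fr.frob (φ := φ) m).zpow (Int.gcdB μ m))
  have h15 := mul_mem (zpow_mem h13 (Int.gcdA μ m)) (zpow_mem h12 (Int.gcdB μ m))
  rw [← Int.gcd_eq_gcd_ab] at h14
  obtain ⟨c, e1⟩ := Int.gcd_dvd_left μ m
  obtain ⟨n, e2⟩ := Int.natCast_dvd_natCast.1 (Int.gcd_dvd_right μ m)
  generalize (β' * β ^ j) ^ Int.gcdA μ m * _ = γ, Int.gcd μ m = d at *
  have h16 := h11 _ (mul_mem (zpow_mem h15 n) (zpow_mem h12 (-1)))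
    (by simpa [e2] using (h14.zpow n).mul ((Fr.frob (φ := φ) m).zpow (-1)))
  rw [zpow_neg_one, mul_inv_eq_one, zpow_natCast, zpow_natCast] at h16
  obtain ⟨hd, hn⟩ := CanonicallyOrderedAdd.mul_pos.1 (e2 ▸ hm)
  obtain rfl : 1 = n := (Nat.succ_le_of_lt hn).eq_or_lt.resolve_right fun hn => by
    obtain ⟨s, rfl⟩ := h14
    rw [zpow_natCast] at h15 h16
    obtain ⟨u, h17, h18, h19⟩ := (hG s d hd ((hB _).1 h15).2.1.symm).fld n hn
    exact h19 (((hB _).1 h15).2.2 u (h16 ▸ h17) h18)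
  have h17 := h11 _ (mul_mem h13 (zpow_mem h12 (-c)))
    (by simpa [e1, e2] using h10.mul ((Fr.frob (φ := φ) m).zpow (-c)))
  rw [zpow_neg, mul_inv_eq_one, zpow_natCast] at h17
  have h18 := pow_mem (show β' * β ^ j ∈ zpowers (φ ^ m) from ⟨c, h17.symm⟩) l
  rwa [(h7.pow_right j).mul_pow, pow_right_comm, h2, one_pow, mul_one] at h18

omit [Nonempty ι] in
theorem gp_of_H (hR : Rep C p) (hlp : l ≠ p) (hL' : ∀ r s, R.ln r = R.ln s)
    (hT : Ty R l π) {γ : MulAut G} (h1 : SA C p γ π 0) {y g : G} (h2 : g⁻¹ * y * γ g ∈ C.H)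
    (h3 : (MulAut.conj y * γ) ^ l = 1) (s : G) (d : ℕ) (hd : 0 < d)
    (h4 : Commute (MulAut.conj y * γ) (MulAut.conj s * φ ^ d)) :
    GP p l (MulAut.conj y * γ) (MulAut.conj s * φ ^ d) := by
  obtain ⟨ρ, e, m, h5, h6, h7, -, -, h8⟩ := SA.nrm h.faithful (a := 0) h1
  replace h5 := h5.congr rfl rfl (m' := 0) fun r => (h8 r).elim fun _ => id
  obtain ⟨c, h9⟩ := C.exists_acts_of_mem_H h2
  have h10 := h5.conj h9
  have h11 : (MulAut.conj (g⁻¹ * y * γ g) * γ) ^ l = 1 := by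
    rw [← conj_twist, inv_conj_pow, h3, mul_one, inv_mul_cancel]
  rw [one_mul] at h10
  have h12 : R.IsAut ρ := isAut_sym (Y := symOf ρ h6 h5.refl) (fun i j => by
    simpa [← pair_simple_simple, ← Sym.ρ_simple] using!
      h5.pair h.faithful h.hMul (R.simple i) (R.simple j)) fun i => hL' _ _
  obtain ⟨_, h13⟩ := h10.pow l
  have := (Gph.gp ⟨h.faithful, h.hMul, h.top, h10, h12, h6, h11, hL', orth_of_ty hL' h12 h6
    (h13.perm_eq h (h11 ▸ Nrm.one)) h7 hT⟩ h7 hT h hR hlp hc hd (a := g⁻¹ * s * (φ ^ d) g) (by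
      rw [← conj_twist, ← conj_twist]
      simpa [mul_assoc] using h4.map (MulAut.conj (MulAut.conj g)⁻¹))).conj (MulAut.conj g)⁻¹
  rw [← conj_twist, ← conj_twist] at this
  simpa [mul_assoc] using this

theorem ga_field (hlp : l ≠ p) (hm : 0 < m) (h1 : Dg C p β π a) (h2 : β ^ l = φ ^ m) {t : G}
    (h3 : t ∈ cfix β) (h4 : t ^ l ∈ center G) (h5 : t ∉ center G) : GA C p l (φ ^ m) β := by
  have : Nonempty Φ := ⟨R.simple (Classical.arbitrary ι)⟩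
  have h6 := ((h2 ▸ h1.pow l).unique h (.of_sa (zpow_natCast φ m ▸ SA.frob h m))).2
  have h7 : ∀ i, 0 ≤ a i := fun i => not_lt.1 fun h5 => hm.not_ge (by
    have := sum_nonpos (s := range l) fun e _ => show a ((π ^ e) i) ≤ 0 by
      have := h1.le h hc ((π ^ e) i) i
      omega
    rw [congrFun h6 i] at this
    exact_mod_cast this)
  lift a to ι → ℕ using h7
  have h8 : IsSt φ β := ⟨l, m, hl.out.pos, hm, h2⟩
  have h9 : fix β ≤ fix (φ ^ m) := h2 ▸ fix_le_pow _ l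
  refine ⟨fun N hN => ?_, fun β' π' a' e1 _ e2 e3 => ?_⟩
  swap
  · obtain ⟨c, rfl⟩ := mem_zpowers_of_dg h hc h1 h8 e1 e2 fun u hu => e3 u ⟨h9 hu, hu⟩
    exact ⟨c, by simp only [← h2, ← zpow_natCast, zpow_comm]⟩
  obtain ⟨s, ν, h1, rfl⟩ := h1
  obtain ⟨ρ, e, m', h10, h11, -⟩ := h1.nrm h.faithful
  replace h8 := h8.conj h.frob s⁻¹
  rw [map_inv, inv_mul_cancel_left] at h8
  rcases eq_or_ne l 2 with rfl | hl2
  swap
  · exact (key_field h hlp hl2 h8 h10 h11 hc hN h9).resolve_right fun e => h5 (e.2 t h3 h4)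
  have h0 : C.H ⊔ C.XS Set.univ = ⊤ := eq_top_iff.2 (h.top.ge.trans le_sup_right)
  obtain ⟨b, -, D, e1, -, e2, -⟩ := exists_dat h h8 h10 h11 (S := Set.univ)
    (fun _ _ _ _ _ _ _ _ => trivial) (h0.ge (mem_top s)) nw_one (by simp)
  rw [mul_one, ← conj_twist] at e2
  replace hN := hN.conj (MulAut.conj b)
  rw [← e2] at hN
  obtain ⟨r⟩ := this
  obtain ⟨A, hA, hr⟩ := HB.Dat.exists_min (D := D) (e1.ge trivial : r ∈ D.S)
  obtain rfl : A = D.S := e1 ▸ Set.eq_univ_of_forall fun a =>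
    let ⟨v, h6, h7⟩ := hc.exists_near r a
    hA.conn v (hA.conn r hr v (e1.ge trivial) (mt R.pair_eq_zero_comm.1 h6)) a (e1.ge trivial) h7
  have hZ : center G ≤ D.Z D.S := fun z hz =>
    ⟨((h.faithful.mem_center_iff h.top).1 hz).1, center_le_centralizer _ hz⟩
  rcases hA.pf_or hlp (fun x hx => ⟨e1 ▸ h0.ge (mem_top x), hZ (hN.cen x hx)⟩)
    (fun x hx => hN.nrm ⟨mem_fix_conj'.2 (h9 (mem_fix_conj'.1 (e2 ▸ D.L_le_fix _ hx))),
      D.L_le_fix _ hx⟩) fun x hx e => hZ (hN.pe x hx e) with h12 | h12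
  · obtain ⟨i⟩ : Nonempty (IndT R D.S) := by
      by_contra! h13
      exact D.B.sys.α_ne_zero ⟨r, hr⟩ (Subsingleton.elim _ _)
    obtain ⟨n, h13, h14⟩ := D.isTw_L.exists_n (D.Y.orb i)
    obtain ⟨j, h15, h16⟩ := exists_pow_pe (l := 2) (D.frob.isOfFinOrder n) 1
    have h17 := mem_of_modEq (K := D.C'.H) (by
      simpa [sq] using (D.Y.s_mul_self _ ▸ h14.mul h14).mem_H) h16 ((D.F.H_inf_XS D.B).le
        ⟨(h12 _ (pow_mem h13 j) h15).1, pow_mem (D.L_le_XS _ h13) j⟩)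
    exact (D.Y.s_ne_one _ (D.F'.nw_unique h14 (nw_of_mem_H h17))).elim
  · rw [e1, show C.XS Set.univ = ⊤ from h.top, coe_top, centralizer_univ] at h12
    exact fun x hx => by
      obtain ⟨x, rfl⟩ := (MulAut.conj b).surjective x
      exact map_mem_center _ (h12 hx)

end Cfsg.Lib.LB
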