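import Cfsg.Agent.Lib.LB.Tri

/-! # Automorphisms that act trivially on the fixed points of a Steinberg map -/

set_option autoImplicit false
set_option linter.unusedSectionVars false

namespace Cfsg.Lib.LB

open Finset Cfsg.Lib.Chev Cfsg.Lib.Chev.RootSys Cfsg.Lib.Chev.PreSys Cfsg.Lib.Chev.ChevSys
  Cfsg.Lib.BN Cfsg.Lib.Twisted Cfsg.Lib.Alg Cfsg.Lib.St Equiv Cfsg.Lib.KI
open Cfsg.Lib.KO hiding exists_zpow_x mem_zpowers_of_fix mem_zpowers_of_center

variable {ι Φ κ : Type} [Fintype ι] [DecidableEq ι] {R : RootSys ι Φ} {k : Type*} [Field k]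
  {G : Type*} [Group G] {C : ChevSys R k G} [Fintype Φ] {Y0 : Sym R κ}
  {p : ℕ} [Fact p.Prime] [CharP k p] [IsAlgClosed k] {T : ChevTab R} {φ σ ν : MulAut G}
  {π : Perm ι} {a : ι → ℤ} {m : ι → ℕ}

section

variable (h : C.Alg T p φ) (S : Twist C Y0) (hθ : ∀ i t, S.θ i t = t ^ p ^ m i)
  (hσ : ∀ g, σ g = S.σ g) (st : IsSt φ σ)
include h hθ hσ st

theorem exists_zpow_x (hν : SA C p ν π a) (hfix : ∀ u ∈ C.U ⊓ S.Fix, ν u = u)
    (j : ι) : ∃ c : ℤ, ∀ t, ν (C.x (R.simple j) t) = (σ ^ c) (C.x (R.simple j) t) := by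
  have hF := h.faithful
  have h0 := sa_of_twist S hθ hσ
  have hl := Function.minimalPeriod_pos_of_mem_periodicPts (Y0.π.injective.mem_periodicPts j)
  have h1 : (Y0.π ^ Function.minimalPeriod Y0.π j) j = j := by
    rw [Perm.coe_pow, Function.iterate_minimalPeriod]
  have h2 : ∀ e < Function.minimalPeriod Y0.π j, ∀ e' < Function.minimalPeriod Y0.π j,
      (Y0.π ^ e) j = (Y0.π ^ e') j → e = e' := fun e he e' he' h =>
    (Function.iterate_eq_iterate_iff_of_lt_minimalPeriod he he').1 (by rwa [← Perm.coe_pow, ← Perm.coe_pow])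
  generalize Function.minimalPeriod Y0.π j = l at hl h1 h2
  let M : ℕ → ℕ := fun e => ∑ b ∈ range e, m ((Y0.π ^ b) j)
  have h3 : ∀ u : k, u ^ p ^ M l = u → (fr k p ^ a j) u =
      ∑ e ∈ range l, if (Y0.π ^ e) j = π j then u ^ p ^ M e else 0 := fun u hu => by
    obtain ⟨g, hg, e⟩ := exists_ld hF S (lang_tw h S hθ hσ st)
      (fun i => ∑ e ∈ range l, if (Y0.π ^ e) j = i then u ^ p ^ M e else 0) fun i => by
        have := (sum_range_succ (fun e => if (Y0.π ^ e) j = Y0.π i then u ^ p ^ M e else 0)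
          l).symm.trans (sum_range_succ' _ l)
        rw [h1, hu, pow_zero, show M 0 = 0 from rfl, pow_zero, pow_one, Perm.one_apply,
          add_left_inj] at this
        rw [this, map_sum]
        refine sum_congr rfl fun e _ => ?_
        simp only [pow_succ', Perm.mul_apply, EmbeddingLike.apply_eq_iff_eq, M, sum_range_succ]
        split_ifs with h4
        · rw [hθ, h4, pow_add, pow_mul]
        · rw [map_zero]
    have := hν.ld hF j hg.1
    rw [hfix g hg, e, e, sum_eq_single 0 (f := fun e => if (Y0.π ^ e) j = j then _ else _)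
      (fun b hb h0 => if_neg fun e => h0 (h2 b (mem_range.1 hb) 0 hl e)) (by simp [hl.ne'])] at this
    simpa [M] using this.symm
  obtain ⟨e, he, h4⟩ : ∃ e < l, (Y0.π ^ e) j = π j := by
    by_contra! h4
    have := h3 1 (by simp)
    rw [sum_eq_zero fun e he => if_neg (h4 e (mem_range.1 he))] at this
    simp at this
  have h5 : ∀ e : ℕ, ∀ t, (σ ^ e) (C.x (R.simple j) t) =
      C.x (R.simple ((Y0.π ^ e) j)) ((fr k p ^ (M e : ℤ)) t) := fun e t => by
    simpa [M] using (h0.pow e).pos j t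
  have h6 := zpow_x (b := M l) (fun t => (h5 l t).trans (by rw [h1]))
  obtain ⟨c, hc⟩ := dvd_of_fr (k := k) (p := p) (N := M l) (a := a j - M e)
    (Nat.pos_of_ne_zero fun h7 => by
      obtain ⟨d, N, -, hN, e⟩ := st
      have := fr_inj (k := k) (p := p) (RingEquiv.ext fun t => hF.x_inj ((h6 d t).symm.trans (by
        rw [zpow_natCast, pow_right_comm, e, ← pow_mul, h.pow_x, ← fr_nat])))
      rw [h7, Nat.cast_zero, zero_mul, eq_comm, Nat.cast_eq_zero] at this
      exact (Nat.mul_pos hN hl).ne' this) fun u hu => by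
      have := h3 u hu
      rw [sum_eq_single e (fun b hb h0 => if_neg fun e' => h0 (h2 b (mem_range.1 hb) e he
        (e'.trans h4.symm))) (by simp [he]), if_pos h4, ← fr_nat] at this
      rw [sub_eq_neg_add, fr_add, this, ← fr_add]
      simp
  refine ⟨e + l * c, fun t => ?_⟩
  rw [zpow_add, _root_.zpow_mul, zpow_natCast, zpow_natCast, MulAut.mul_apply, h6, h5, hν.pos, h4, ← fr_add, ← hc,
    add_sub_cancel]

theorem mem_zpowers_of_fix (hc : R.Conn) (hν : SA C p ν π a)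
    (hcm : Commute ν σ) (hfix : ∀ u ∈ C.U ⊓ S.Fix, ν u = u) : ν ∈ Subgroup.zpowers σ := by
  choose c hc' using exists_zpow_x h S hθ hσ st hν hfix
  obtain ⟨d, N, hd, hN, e⟩ := st
  have h1 : ∀ j (n : ℕ) t, (ν ^ n) (C.x (R.simple j) t) = (σ ^ (n * c j)) (C.x (R.simple j) t) :=
    fun j n t => by
      induction n with
      | zero => simp
      | succ n ih => rw [pow_succ', MulAut.mul_apply, ih, ← MulAut.mul_apply,
          (hcm.zpow_right _).eq, MulAut.mul_apply, hc', ← MulAut.mul_apply, ← zpow_add,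
          Nat.cast_succ, add_one_mul]
  have h2 := hν.pow (d * orderOf π)
  rw [mul_comm d, pow_mul π, pow_orderOf_eq_one, one_pow, mul_comm _ d] at h2
  have h3 : ∀ j, _ = (N * (orderOf π * c j) : ℤ) := fun j =>
    (h2.of_eq h.faithful (SA.frob h _) (i := j) fun t => by
      rw [h1, Nat.cast_mul, mul_assoc, _root_.zpow_mul, zpow_natCast, e, ← zpow_natCast,
        ← _root_.zpow_mul]).2
  obtain ⟨b, hb⟩ : ∃ b, ∀ j, c j = b := by
    obtain hι | ⟨⟨i⟩⟩ := isEmpty_or_nonempty ι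
    · exact ⟨0, hι.elim⟩
    refine ⟨c i, fun j => ?_⟩
    have := (h3 j).symm.trans ((h2.const h.faithful h.hMul hc j i).trans (h3 i))
    simpa [hN.ne', (orderOf_pos π).ne'] using this
  obtain ⟨a', h4⟩ := (sa_of_twist S hθ hσ).zpow b
  have h5 := fun j => hν.of_eq h.faithful h4 (hb j ▸ hc' j)
  exact ⟨b, (hν.eq h.top (h4.congr (Equiv.ext fun j => (h5 j).1.symm) fun j => (h5 j).2.symm)).symm⟩

/-- An automorphism that acts trivially on the finite group modulo its centre is a power of `σ`. -/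
theorem mem_zpowers_of_center (hc : R.Conn) (hν : SA C p ν π a) {s : G}
    (hcm : Commute (MulAut.conj s * ν) σ)
    (hz : ∀ u ∈ fix σ, u⁻¹ * (MulAut.conj s * ν) u ∈ Subgroup.center G) :
    MulAut.conj s = 1 ∧ ν ∈ Subgroup.zpowers σ := by
  have hF := h.faithful
  have hL := lang_tw h S hθ hσ st
  obtain ⟨n, h1, h2⟩ := exists_pow_U C p
  have h3 : ∀ u ∈ S.Fix, u ^ p ^ n = 1 → s * ν u * s⁻¹ = u := fun u hu e =>
    eq_of_center h e (hz u ((hσ u).trans hu))
  obtain ⟨c, h4⟩ := C.exists_acts_of_mem_H (mem_H_of_fix hF S hL h.top hν (s := s)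
    (fun u hu => (h3 u hu.2 (h1 u hu.1)).symm ▸ hu.1)
    fun u hu => (h3 u hu.2 (h2 u hu.1)).symm ▸ hu.1)
  obtain ⟨u, hu, e⟩ := exists_ld hF S hL 1 (by simp)
  have h5 : MulAut.conj s = 1 := Std.eq h.top (std_of_acts h4) (by
    rw [show (fun i => R.chr c (R.simple i)) = 1 from funext fun i => ?_]
    · exact Std.refl
    obtain ⟨i, rfl⟩ := π.surjective i
    have := ld_conj hF h4 (π i) (Std.mem_U hν hF hu.1)
    rw [h3 u hu.2 (h1 u hu.1), hν.ld hF i hu.1, e, e] at this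
    exact Units.ext (by simpa using this.symm))
  rw [h5, one_mul] at hcm
  refine ⟨h5, mem_zpowers_of_fix h S hθ hσ st hc hν hcm fun u hu => ?_⟩
  exact (DFunLike.congr_fun h5 (ν u)).symm.trans (h3 u hu.2 (h1 u hu.1))

end

theorem mem_zpowers_of_dg (h : C.Alg T p φ) (hc : R.Conn) {β β' : MulAut G} {π' : Perm ι}
    (h1 : HB.Dg C p β π fun i => m i) (st : IsSt φ β) (h2 : HB.Dg C p β' π' a) (h3 : Commute β' β)
    (h4 : ∀ u ∈ fix β, u⁻¹ * β' u ∈ Subgroup.center G) : β' ∈ Subgroup.zpowers β := by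
  obtain ⟨s, ν, h1, rfl⟩ := h1
  obtain ⟨s', ν', h2, rfl⟩ := h2
  replace st := st.conj h.frob s⁻¹
  rw [map_inv, inv_mul_cancel_left] at st
  obtain ⟨g, rfl⟩ := h.lang_top st s
  obtain ⟨ρ, e, m', h5, h6, h7, -⟩ := h1.nrm h.faithful
  have h8 : ∀ i, (symOf ρ h6 h5.refl).π i = π i := fun i =>
    R.simple_injective (((symOf ρ h6 h5.refl).ρ_simple i).symm.trans (h7 i))
  have h9 := conj_twist g⁻¹ s' ν'
  rw [← HB.conj_mul_conj] at h3 h4 ⊢
  rw [map_inv, inv_inv] at h9
  obtain ⟨h10, c, h11⟩ := mem_zpowers_of_center h (Y0 := symOf ρ h6 h5.refl)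
    ⟨ν.toMonoidHom, fun i => iterateFrobenius k p (m i),
      fun i t => by rw [h8]; exact (h1.pos i t).trans (by rw [fr_nat]; rfl),
      fun i t => by rw [h8]; exact (h1.neg i t).trans (by rw [fr_nat]; rfl)⟩ (m := m)
    (fun _ _ => rfl) (fun _ => rfl) st hc h2 (s := g⁻¹⁻¹ * s' * ν' g⁻¹)
    (by rw [← h9]; simpa [mul_assoc] using h3.map (MulAut.conj (MulAut.conj g))) fun u hu => by
      obtain ⟨u, rfl⟩ := (MulAut.conj g).surjective u
      rw [← h9]
      simpa [mul_assoc] using HB.map_mem_center (MulAut.conj g) (h4 u (HB.mem_fix_conj'.2 hu))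
  rw [h10, one_mul] at h9
  exact ⟨c, (by simpa using conj_zpow (a := (MulAut.conj g)⁻¹) (i := c) :
    _ = (MulAut.conj g)⁻¹ * ν ^ c * MulAut.conj g).trans (by
      rw [show ν ^ c = _ from h11.trans h9.symm]
      group)⟩

end Cfsg.Lib.LB
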