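import Cfsg.Agent.Lib.LB.Orb

/-! # Normal form of a Steinberg map commuting with a graph automorphism -/

set_option autoImplicit false
set_option linter.unusedSectionVars false

namespace Cfsg.Lib.LB

open Finset Cfsg.Lib.Chev Cfsg.Lib.Chev.RootSys Cfsg.Lib.Chev.PreSys Cfsg.Lib.Chev.ChevSys
  Cfsg.Lib.Alg Equiv Cfsg.Lib.HB Cfsg.Lib.KO
open Cfsg.Lib.KI hiding Nrm

variable {ι Φ : Type} [Fintype ι] [DecidableEq ι] {R : RootSys ι Φ} {k : Type*} [Field k]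
  {G : Type*} [Group G] {C : ChevSys R k G} [Fintype Φ] {p l : ℕ} [Fact p.Prime] [CharP k p]
  [hl : Fact l.Prime]

namespace Gph

variable {θ : MulAut G} {ρ : Perm Φ} {e : Φ → kˣ} (h : Gph C p l θ ρ e)
include h

theorem exists_impr {K : Subgroup G}
    (hK : ∀ r, Act ρ e r → ∀ t, nP θ (dg l ρ r) (C.x r t) ∈ K) {β : Φ} (h3 : R.IsPos β)
    (h4 : Act ρ e β) {x : Perm Φ} (hx : R.IsAut x) (hc : Commute ρ x) (h5 : ¬ R.IsPos (x⁻¹ β)) :
    ∃ n ∈ K, ∃ w, C.NW n w ∧ pot R x < pot R (w * x) := by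
  have key : ∀ j ≤ dg l ρ β, ∃ w, C.NW (nP θ j (C.n β 1)) w ∧ pot R x + j ≤ pot R (w * x) ∧
      ∀ i, j ≤ i → i < dg l ρ β → w ((ρ ^ i) β) = (ρ ^ i) β := fun j hj => by
    induction j with
    | zero => exact ⟨1, nw_one, by simp, fun _ _ _ => rfl⟩
    | succ j ih =>
      obtain ⟨w, h6, h7, h8⟩ := ih (by omega)
      obtain ⟨c, h9⟩ := h.nrm.pow j
      have h10 := isAut_of_mem_W h6.mem_W
      have h11 := h8 j le_rfl hj
      have h12 : w * R.refl ((ρ ^ j) β) = R.refl ((ρ ^ j) β) * w := by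
        rw [← mul_inv_eq_iff_eq_mul, h10.conj_refl, h11]
      refine ⟨w * R.refl ((ρ ^ j) β), by rw [nP_succ, h9.n]; exact h6.mul (nw_n _ _), ?_,
        fun i h13 h14 => ?_⟩
      · have := pot_lt (h10.mul hx) ((h.pos_pow j β).2 h3) (by
          rwa [mul_inv_rev, Perm.mul_apply, w.inv_eq_iff_eq.2 h11.symm, ← Perm.mul_apply,
            ← (hc.inv_right.pow_left j).eq, Perm.mul_apply, h.pos_pow])
        rw [h12, mul_assoc, Nat.cast_succ]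
        omega
      · obtain ⟨i, rfl⟩ := Nat.exists_eq_add_of_lt h13
        rw [Perm.mul_apply, refl_eq_self, h8 _ (by omega) h14]
        rw [add_assoc, pow_add, Perm.mul_apply, (h.aut_pow j).pair]
        exact h.orth β _ (h.pow_ne (by omega) (by omega))
  obtain ⟨w, h6, h7, -⟩ := key _ le_rfl
  have h8 := dg_pos (l := l) (ρ := ρ) β
  refine ⟨_, ?_, w, h6, by omega⟩
  have h9 : ∀ t, C.x (R.neg β) t ∈ XR C β := C.x_mem (.inr rfl)
  rw [PreSys.n, nP_mul (h.hc β) (mul_mem (x_mem_XR β _) (h9 _)) (x_mem_XR β _) le_rfl,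
    nP_mul (h.hc β) (x_mem_XR β _) (h9 _) le_rfl]
  exact mul_mem (mul_mem (hK β h4 _) (h.dg_neg β ▸ hK _ (h.act_neg.2 h4) _)) (hK β h4 _)

/-- compatibility of the constants of two commuting maps -/
theorem comm_e {τ : MulAut G} {x : Perm Φ} {c : Φ → kˣ} {m : Φ → ℕ} (hτ : Nrm C p τ x c m)
    (hc : Commute θ τ) : Commute ρ x ∧ ∀ r, ρ r = r → e (x r) = e r ^ p ^ m r := by
  obtain ⟨h10, h11⟩ := nrm_unique h.F ((h.nrm.mul hτ).congr hc rfl fun _ => rfl) (hτ.mul h.nrm)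
  refine ⟨h10, fun r hr => ?_⟩
  have h13 := congrFun h11 r
  simp only [hr, Pi.zero_apply, pow_zero, pow_one] at h13
  exact mul_right_cancel (h13.trans (mul_comm _ _))

variable [IsAlgClosed k] {T : ChevTab R} {φ : MulAut G}

theorem act_map {τ : MulAut G} {x : Perm Φ} {c : Φ → kˣ} {m : Φ → ℕ} (hτ : Nrm C p τ x c m)
    (hc : Commute θ τ) (r : Φ) : Act ρ e (x r) ↔ Act ρ e r := by
  obtain ⟨h1, h2⟩ := h.comm_e hτ hc
  rw [Act, ← Perm.mul_apply, h1.eq, Perm.mul_apply, x.apply_eq_iff_eq]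
  exact imp_congr_right fun hr => by rw [h2 r hr, pow_eq_one_iff_char]

theorem exists_nf (ha : C.Alg T p φ) (hR : Rep C p) {d : ℕ} (hd : 0 < d) {a : G}
    (hc : Commute θ (MulAut.conj a * φ ^ d)) :
    ∃ g ∈ fix θ, ∃ τ, ∃ x ∈ R.W, ∃ c, MulAut.conj a * φ ^ d = (MulAut.conj g)⁻¹ * τ * MulAut.conj g ∧
      IsSt φ τ ∧ Nrm C p τ x c (fun _ => d) ∧ Commute θ τ ∧
        ∀ r, R.IsPos r → Act ρ e r → R.IsPos (x r) := by
  have hF := h.F
  have hσ := Nrm.frob ha d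
  have hU := h.gen_U fun r _ => h.oP_mem_Lc (r := r)
  have hV := h.gen_V fun r _ => h.oP_mem_Lc (r := r)
  have h3 : ∀ S : Set Φ, (∀ r, ρ r ∈ S ↔ r ∈ S) → ∀ u ∈ C.XS S,
      a⁻¹ * θ a * u * (a⁻¹ * θ a)⁻¹ ∈ C.XS S := fun S h3 u => conj_mem_of_XS fun s hs t => by
    obtain ⟨r, rfl⟩ := ρ.surjective s
    obtain ⟨u, hu⟩ := IsAlgClosed.exists_pow_nat_eq (((e r)⁻¹ : kˣ) * t)
      (pow_pos (Fact.out : p.Prime).pos d)
    have h5 := DFunLike.congr_fun hc.eq (C.x r u)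
    simp only [MulAut.mul_apply, MulAut.conj_apply, map_mul, map_inv] at h5
    rw [show C.x _ t = θ ((φ ^ d) (C.x r u)) by simp [hσ.x, h.nrm.x, hu],
      show _ * _ = a⁻¹ * (θ a * θ ((φ ^ d) (C.x r u)) * (θ a)⁻¹) * a by group, h5]
    simpa [mul_assoc] using hσ.mem_XS (fun r => id)
      (h.nrm.mem_XS (fun r => (h3 r).2) (C.x_mem ((h3 _).1 hs) u))
  obtain ⟨u, hu, n, w, hn, v, -, hv, e1⟩ := exists_dec hF h.top h.nrm h.pos
    (hF.mem_H_of_conj_UV (ha.mem _) (h3 _ h.pos) (h3 _ fun r => (h.pos r).not))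
  obtain ⟨w, ⟨b, hb, hn⟩, h4⟩ := Set.exists_max_image {w | ∃ b ∈ Lc C θ, C.NW (b * a) w}
    (pot R) (Set.toFinite _) ⟨w, _, inv_mem (mul_mem (hU hu) (hV hv)), by
      simpa [e1, mul_assoc] using hn⟩
  obtain ⟨c, h5⟩ := hn.exists_acts
  have h6 := hσ.conj h5
  rw [mul_one] at h6
  have h7 : Commute θ (MulAut.conj (b * a) * φ ^ d) := by
    rw [map_mul, mul_assoc]
    exact (commute_conj_iff.2 (by simp [mem_fix.1 (Lc_le_fix hb)])).symm.mul_right hc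
  have h8 := (isSt_pow φ hd).conj ha.frob (b * a)
  obtain ⟨g, hg, h9⟩ := lang_Lc ha hR h8 h6 h7.symm b⁻¹ (inv_mem hb)
  refine ⟨g, Lc_le_fix hg, _, w, hn.mem_W, _, ?_, h8, h6, h7, fun r h10 h11 =>
    ((iff_of_mapsTo (ρ := w⁻¹) (A := {r | R.IsPos r ∧ Act ρ e r})
      (fun r hr => ⟨not_not.1 fun h12 => ?_, ?_⟩) _).1 (by simpa using ⟨h10, h11⟩)).1⟩
  · conv_lhs => rw [← inv_mul_cancel_left b a, ← h9]
    exact MulEquiv.ext fun y => by simp [mul_assoc]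
  · obtain ⟨n, h13, w', h14, h15⟩ := h.exists_impr (fun r => h.oP_mem_Lc) hr.1 hr.2 h5.aut
      (h.comm_e h6 h7).1 h12
    exact (h4 _ ⟨_, mul_mem h13 hb, mul_assoc n b a ▸ h14.mul hn⟩).not_gt h15
  · exact (h.act_map h6 h7 _).1 (by simpa using hr.2)

end Gph

end Cfsg.Lib.LB
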