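import Cfsg.Agent.Lib.HB.Top
import Cfsg.Agent.Lib.KO.Nc

/-! # Graph automorphisms of prime order in normal form: orbit products -/

set_option autoImplicit false
set_option linter.unusedSectionVars false

namespace Cfsg.Lib.LB

open Finset Cfsg.Lib.Chev Cfsg.Lib.Chev.RootSys Cfsg.Lib.Chev.PreSys Cfsg.Lib.Chev.ChevSys
  Cfsg.Lib.Alg Equiv Cfsg.Lib.HB Cfsg.Lib.KO
open Cfsg.Lib.KI hiding Nrm

variable {ι Φ : Type} [Fintype ι] [DecidableEq ι] {R : RootSys ι Φ} {k : Type*} [Field k]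
  {G : Type*} [Group G] {C : ChevSys R k G} [Fintype Φ] {p l : ℕ}

/-- the roots whose orbit contributes a root group of the centraliser -/
def Act (ρ : Perm Φ) (e : Φ → kˣ) (r : Φ) : Prop := ρ r = r → e r = 1

open Classical in
/-- the length of an orbit -/
noncomputable def dg (l : ℕ) (ρ : Perm Φ) (r : Φ) : ℕ := if ρ r = r then 1 else l

theorem dg_congr {ρ : Perm Φ} {r s : Φ} (h : ρ r = r ↔ ρ s = s) : dg l ρ r = dg l ρ s := by
  unfold dg
  rw [propext h]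

theorem nrm_op {τ : MulAut G} {x : Perm Φ} {c : Φ → kˣ} {m : Φ → ℕ} (h : Nrm C p τ x c m) :
    Nrm C.op p τ x (fun r => c (R.neg r)) m where
  x r t := by simp only [op_toPreSys, op_x]; rw [h.x, h.neg, h.m_neg]
  e_neg r := h.e_neg _
  m_neg := h.m_neg
  refl := h.refl

theorem lc_map {τ : MulAut G} {x : Perm Φ} {c : Φ → kˣ} {m : Φ → ℕ} (h : Nrm C p τ x c m)
    (hF : C.Faithful) {A O : Set Φ} (hA : Gd R A O) (a : ∀ r ∈ A, x r ∈ A) {s : Φ} (hs : s ∈ O)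
    (hs' : x s ∈ O) {g : G} (hg : g ∈ C.XS A) :
    lc C A (x s) (τ g) = c s * lc C A s g ^ p ^ m s := hA.lc_eq hF hs' (by
  rw [← h.x, ← map_inv, ← map_mul]
  exact h.mem_XS (A := A \ {s}) (fun r hr => by exact ⟨a r hr.1, fun e => hr.2 (x.injective e)⟩)
    (hA.lc_spec hF hs hg))

variable (C p l) in
/-- `θ` is an algebraic automorphism of prime order in normal form with orthogonal orbits -/
structure Gph (θ : MulAut G) (ρ : Perm Φ) (e : Φ → kˣ) : Prop where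
  F : C.Faithful
  hM : C.HMul
  top : C.grp = ⊤
  nrm : Nrm C p θ ρ e 0
  aut : R.IsAut ρ
  pos : ∀ r, R.IsPos (ρ r) ↔ R.IsPos r
  pow : θ ^ l = 1
  ln : ∀ r s, R.ln r = R.ln s
  orth : ∀ r (i : ℕ), (ρ ^ i) r ≠ r → R.pair r ((ρ ^ i) r) = 0

namespace Gph

variable {θ : MulAut G} {ρ : Perm Φ} {e : Φ → kˣ} (h : Gph C p l θ ρ e)
include h

theorem op : Gph C.op p l θ ρ fun r => e (R.neg r) :=
  ⟨h.F.op, fun r => h.hM (R.neg r), op_grp.trans h.top, nrm_op h.nrm, h.aut, h.pos, h.pow, h.ln,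
    h.orth⟩

theorem ρ_pow : ρ ^ l = 1 :=
  let ⟨_, h1⟩ := h.nrm.pow l
  (nrm_unique h.F h1 (h.pow ▸ Nrm.one)).1

theorem fix_neg {r : Φ} : ρ (R.neg r) = R.neg r ↔ ρ r = r := by
  rw [h.aut.neg, R.neg_injective.eq_iff]

theorem dg_neg (r : Φ) : dg l ρ (R.neg r) = dg l ρ r := dg_congr h.fix_neg

theorem act_neg {r : Φ} : Act ρ e (R.neg r) ↔ Act ρ e r := by
  rw [Act, h.fix_neg, eq_inv_of_mul_eq_one_right (h.nrm.e_neg r), inv_eq_one, Act]

theorem pos_pow (i : ℕ) (r : Φ) : R.IsPos ((ρ ^ i) r) ↔ R.IsPos r := by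
  induction i with
  | zero => rfl
  | succ i ih => rw [pow_succ', Perm.mul_apply, h.pos, ih]

theorem aut_pow (i : ℕ) : R.IsAut (ρ ^ i) := R.autGroup.pow_mem h.aut i

theorem x_fix {r : Φ} (h1 : ρ r = r) (h2 : e r = 1) (t : k) : θ (C.x r t) = C.x r t := by
  simp [h.nrm.x, h1, h2]

variable [hl : Fact l.Prime]

theorem pow_ne {r : Φ} {i : ℕ} (h1 : 0 < i) (h2 : i < dg l ρ r) : (ρ ^ i) r ≠ r := fun e => by
  unfold dg at h2
  split_ifs at h2 with h3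
  · omega
  have := Function.IsPeriodicPt.gcd (f := ρ) (x := r) (m := l) (n := i)
    (by rw [Function.IsPeriodicPt, ← Perm.coe_pow, h.ρ_pow]; rfl)
    (by rw [Function.IsPeriodicPt, ← Perm.coe_pow]; exact e)
  rw [Nat.coprime_of_lt_prime h1.ne' h2 hl.out] at this
  exact h3 this

omit h in
theorem dg_pos (r : Φ) : 0 < dg l ρ r := by
  unfold dg
  split_ifs
  exacts [one_pos, hl.out.pos]

theorem hc (r : Φ) :
    ∀ i, 0 < i → i < dg l ρ r → ∀ x ∈ XR C r, ∀ y ∈ XR C r, Commute x ((θ ^ i) y) :=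
  fun i h1 h2 _ hx _ hy => let ⟨_, h3⟩ := h.nrm.pow i
    commute_XR h.ln (h.orth r i (h.pow_ne h1 h2)) hx (h3.mem_XR hy)

theorem oP_fix {r : Φ} (hr : Act ρ e r) {g : G} (hg : g ∈ XR C r) :
    nP θ (dg l ρ r) g ∈ fix θ := by
  refine nP_fix (h.hc r) hg ?_
  unfold dg
  split_ifs with h1
  · refine (XS_le (K := fix (θ ^ 1))).2 ?_ hg
    rw [pow_one]
    rintro _ (rfl | rfl) t
    exacts [h.x_fix h1 (hr h1) t, h.x_fix (h.fix_neg.2 h1) (h.act_neg.2 hr (h.fix_neg.2 h1)) t]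
  · rw [h.pow, MulAut.one_apply]

theorem lc_oP {A O : Set Φ} (hA : Gd R A O) (a : ∀ r ∈ A, ρ r ∈ A) {r s : Φ} (hr : r ∈ A)
    (hs : s ∈ O) (t : k) : (s = r → lc C A s (nP θ (dg l ρ r) (C.x r t)) = t) ∧
      ((∀ i : ℕ, (ρ ^ i) r ≠ s) → lc C A s (nP θ (dg l ρ r) (C.x r t)) = 0) := by
  classical
  choose c hc using h.nrm.pow
  have h1 : ∀ i : ℕ, (ρ ^ i) r ∈ A := fun i => by
    induction i with
    | zero => exact hr
    | succ i ih => exact pow_succ' ρ i ▸ a _ ih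
  rw [(hA.lc_nP h.F hs (fun _ => h.nrm.mem_XS a) (C.x_mem hr t) _).2]
  refine ⟨?_, fun h2 => sum_eq_zero fun i _ => by
    rw [(hc i).x, hA.lc_x h.F hs (h1 i), if_neg (h2 i).symm]⟩
  rintro rfl
  rw [sum_eq_single_of_mem 0 (mem_range.2 (dg_pos s)) fun i h2 h3 => by
    rw [(hc i).x, hA.lc_x h.F hs (h1 i), if_neg (h.pow_ne (Nat.pos_of_ne_zero h3)
      (mem_range.1 h2)).symm]]
  simpa using hA.lc_x h.F hs hr t

/-- The fixed points in a unipotent group are generated by orbit products. -/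
theorem gen {K : Subgroup G} {A : Set Φ} (h1 : R.IsClosed A) (h2 : ∀ r ∈ A, R.IsPos r)
    (h3 : ∀ r ∈ A, ρ r ∈ A) (h4 : ∀ r ∈ A, Act ρ e r → ∀ t, nP θ (dg l ρ r) (C.x r t) ∈ K) :
    C.XS A ⊓ fix θ ≤ K := by
  induction hn : A.ncard using Nat.strong_induction_on generalizing A with | _ n ih
  intro g hg
  rcases A.eq_empty_or_nonempty with rfl | hA
  · rw [show g = 1 by simpa [XS_empty] using hg.1]
    exact one_mem _
  obtain ⟨r, hr, h5⟩ := Set.exists_min_image A R.ht A.toFinite hA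
  have h6 : ∀ i : ℕ, (ρ ^ i) r ∈ A := fun i => by
    induction i with
    | zero => exact hr
    | succ i ih => exact pow_succ' ρ i ▸ h3 _ ih
  have hO : Gd R A (Set.range fun i : ℕ => (ρ ^ i) r) := ⟨h1, h2, by
    rintro _ ⟨i, rfl⟩
    exact h6 i, by
    rintro a ha b hb _ e ⟨i, rfl⟩
    have h7 : R.ht a + R.ht b ≤ R.ht ((ρ ^ i) r) := e.le (h2 a ha).ht_pos.le (h2 b hb).ht_pos.le
    rw [ht_aut (h.aut_pow i) (h.pos_pow i)] at h7
    have := h5 a ha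
    have := (h2 b hb).ht_pos
    omega⟩
  have h7 : ∀ s ∈ Set.range fun i : ℕ => (ρ ^ i) r, ρ s ∈ Set.range fun i : ℕ => (ρ ^ i) r := by
    rintro _ ⟨i, rfl⟩
    exact ⟨i + 1, by simp [pow_succ']⟩
  have h8 : ∀ y ∈ C.XS A ⊓ fix θ, lc C A r y = 0 → y ∈ K := fun y hy e => by
    refine ih _ (hn ▸ Set.ncard_lt_ncard ⟨Set.sdiff_subset, fun e => (e hr).2 ⟨0, rfl⟩⟩) (hO.diff le_rfl)
      (fun s hs => h2 s hs.1) (fun s hs => ⟨h3 s hs.1, mt (iff_of_mapsTo h7 s).1 hs.2⟩)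
      (fun s hs => h4 s hs.1) rfl ⟨hO.mem_of_lc h.F hy.1 ?_, hy.2⟩
    rintro _ ⟨i, rfl⟩
    induction i with
    | zero => exact e
    | succ i ih =>
      have := lc_map h.nrm h.F hO h3 ⟨i, rfl⟩ (h7 _ ⟨i, rfl⟩) hy.1
      rw [mem_fix.1 hy.2, ih] at this
      simpa [pow_succ'] using this
  by_cases h9 : Act ρ e r
  · have h10 := nP_mem (τ := θ) (fun _ => h.nrm.mem_XS h3) (C.x_mem hr (lc C A r g)) (dg l ρ r)
    have := mul_mem (h4 r hr h9 (lc C A r g)) (h8 _ (mul_mem (inv_mem ⟨h10, h.oP_fix h9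
      (x_mem_XR r _)⟩) hg) (by
        rw [hO.lc_mul h.F (s := r) ⟨0, rfl⟩ (inv_mem h10) hg.1, hO.lc_inv h.F (s := r) ⟨0, rfl⟩ h10,
          (h.lc_oP hO h3 hr (s := r) ⟨0, rfl⟩ _).1 rfl, neg_add_cancel]))
    rwa [mul_inv_cancel_left] at this
  · obtain ⟨h10, h11⟩ := Classical.not_imp.1 h9
    have := lc_map h.nrm h.F hO h3 ⟨0, rfl⟩ (h7 _ ⟨0, rfl⟩) hg.1
    simp only [mem_fix.1 hg.2, pow_zero, Perm.one_apply, h10, Pi.zero_apply, pow_one] at this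
    exact h8 g hg (by_contra fun h0 => h11 (Units.ext ((mul_eq_right₀ h0).1 this.symm)))

theorem gen_U {K : Subgroup G}
    (h4 : ∀ r, R.IsPos r → Act ρ e r → ∀ t, nP θ (dg l ρ r) (C.x r t) ∈ K) : C.U ⊓ fix θ ≤ K :=
  h.gen isClosed_pos (fun _ h => h) (fun r => (h.pos r).2) h4

theorem gen_V {K : Subgroup G}
    (h4 : ∀ r, ¬ R.IsPos r → Act ρ e r → ∀ t, nP θ (dg l ρ r) (C.x r t) ∈ K) : C.V ⊓ fix θ ≤ K :=
  op_U (C := C.toPreSys) ▸ h.op.gen_U fun r h1 h2 t => h.dg_neg r ▸ h4 _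
    (isPos_neg_iff.not.2 (not_not.2 h1)) (fun e => h2 (h.fix_neg.1 e)) t

theorem oP_mem_Lc {r : Φ} (hr : Act ρ e r) (t : k) : nP θ (dg l ρ r) (C.x r t) ∈ Lc C θ := by
  refine mem_Lc (f := fun t => nP θ (dg l ρ r) (C.x r t)) ?_ (fun t u => by
    rw [C.x_add, nP_mul (h.hc r) (x_mem_XR r t) (x_mem_XR r u) le_rfl])
    (fun t => h.oP_fix hr (x_mem_XR r t)) t
  generalize dg l ρ r = n
  induction n with
  | zero => exact const_mem 1
  | succ n ih => exact mul_mem (by simpa using x_mem_cur r .X) (map_mem_cur h.nrm ih)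

/-- A commuting map in normal form permutes the orbit products. -/
theorem map_oP {τ : MulAut G} {x : Perm Φ} {c : Φ → kˣ} {m : Φ → ℕ} (hτ : Nrm C p τ x c m)
    (hc : Commute τ θ) (r : Φ) (g : G) :
    τ (nP θ (dg l ρ r) g) = nP θ (dg l ρ (x r)) (τ g) := by
  have h1 := (nrm_unique h.F ((hτ.mul h.nrm).congr hc rfl fun _ => rfl) (h.nrm.mul hτ)).1
  rw [nP_map hc, dg_congr (s := x r) (by
    rw [← Perm.mul_apply, ← h1, Perm.mul_apply, x.apply_eq_iff_eq])]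

end Gph

end Cfsg.Lib.LB
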