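import Cfsg.Agent.Lib.LB.Ga
import Cfsg.Agent.Lib.HB.Cov
import Cfsg.Agent.Lib.HB.Rig
import Cfsg.Agent.Lib.KO.Gen
import Cfsg.Agent.Lib.Bal.Basic

/-! # Local balance in the finite group -/

set_option autoImplicit false
set_option linter.unusedSectionVars false

namespace Cfsg.Lib.LB

open Finset Cfsg.Lib.Chev Cfsg.Lib.Chev.RootSys Cfsg.Lib.Chev.PreSys Cfsg.Lib.Chev.ChevSys
  Cfsg.Lib.Alg Equiv Cfsg.Lib.HB Cfsg.Lib.KO Cfsg.Lib.Root Subgroup Cfsg.Lib.Twisted Cfsg.Lib.AbS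
  Cfsg.Lib.St
open Cfsg.Lib.KI hiding Nrm Dat
open scoped commutatorElement

variable {Y : Type*} [Group Y] (hZ : center Y = ⊥) {l : ℕ} [hl : Fact l.Prime] {α : MulAut Y}

/-- the inner automorphisms -/
abbrev In (Y : Type*) [Group Y] : Subgroup (MulAut Y) := (MulAut.conj : Y →* MulAut Y).range

include hZ

theorem mem_cen {y : Y} : MulAut.conj y ∈ centralizer {α} ↔ α y = y := by
  rw [mem_centralizer_singleton_iff, ← commute_iff_eq, commute_conj_iff, hZ, Subgroup.mem_bot,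
    inv_mul_eq_one, eq_comm]

theorem conj_inj {y : Y} (h : MulAut.conj y = 1) : y = 1 := hZ.le (conj_eq_one_iff'.1 h)

theorem dvd_card [Finite Y] (hα : orderOf α = l) (h : l ∣ Nat.card Y) :
    l ∣ Nat.card ↥(In Y ⊓ centralizer {α}) := by
  rw [← Bal.card_eqLocus hZ]
  exact ((((IsPGroup.of_card (G := zpowers α) (n := 1) (by simp [hα])).card_modEq_card_fixedPoints
    Y).dvd_iff dvd_rfl).1 h).trans (Nat.card_congr (Equiv.subtypeEquivRight fun y =>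
      ⟨fun e => e ⟨α, mem_zpowers α⟩, fun e g =>
        zpowers_le.2 (show α ∈ MulAction.stabilizer _ y from e) g.2⟩)).dvd

variable {ι Φ : Type} [Fintype ι] [DecidableEq ι] {R : RootSys ι Φ} [Fintype Φ] {p m : ℕ}
  [Fact p.Prime] {D : AlgCover (trivSym R) p (fun _ => m) Y} (hm : 0 < m) (ext : Ext D)
  [Nonempty ι] {β : MulAut D.G}
include hm

omit hZ in
theorem σ_eq : D.σ = D.φ ^ m := ((sa_σ D).eq_frob D.alg D.conn (Classical.arbitrary ι)).trans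
  (zpow_natCast _ _)

omit hZ in
theorem commute_of_ind {β' : MulAut D.G} {α' : MulAut Y} (h1 : IsA D β) (h2 : Ind D β α)
    (h3 : IsA D β') (h4 : Ind D β' α') (h : Commute α α') : Commute β β' := by
  obtain ⟨c, e⟩ := (((h1.mul h3).mul h1.inv).mul h3.inv).ker (fun _ => hm)
    (by simpa [h.eq] using ((h2.mul h4).mul h2.inv).mul h4.inv)
  obtain ⟨_, _, _, _, h5⟩ := h1
  obtain ⟨_, _, _, _, h6⟩ := h3
  have h5 : Deg D.C p β _ := ⟨_, _, ⟨_, _, h5⟩, rfl⟩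
  have h6 : Deg D.C p β' _ := ⟨_, _, ⟨_, _, h6⟩, rfl⟩
  have h7 : Deg D.C p D.σ _ := ⟨_, _, .of_sa (sa_σ D), rfl⟩
  have h8 := (h7.zpow c).unique D.alg (e ▸ ((h5.mul h6).mul h5.inv).mul h6.inv)
  rw [← commutatorElement_eq_one_iff_commute, commutatorElement_def, ← e,
    (mul_eq_zero.1 (h8.trans (by ring))).resolve_right
    (sum_pos (fun i _ => by exact_mod_cast hm) univ_nonempty).ne']
  exact zpow_zero _

include ext

theorem good_of_ga (h1 : IsA D β) (h2 : Ind D β α) (h3 : GA D.C p l D.σ β) :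
    Bal.Good l (In Y) α := fun N hN => by
  have h4 : ∀ u (hu : u ∈ fix D.σ ⊓ fix β), α (D.π ⟨u, hu.1⟩) = D.π ⟨u, hu.1⟩ := fun u hu =>
    (h2.2 ⟨u, hu.1⟩).elim fun _ e => e.symm.trans (congrArg D.π (Subtype.ext hu.2))
  have h5 := h3.inn (((N.comap MulAut.conj).comap D.π).map (Subgroup.subtype _))
    ⟨map_subtype_le _, by
      rintro _ ⟨y, hy, rfl⟩
      exact Idc.cen D.ker h2 ((mem_cen hZ).1 (hN.le hy)), fun y hy => by
      refine le_normalizer_map _ ⟨⟨y, hy.1⟩, le_normalizer_comap _ (le_normalizer_comap _ ?_), rfl⟩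
      have h5 : MulAut.conj (D.π ⟨y, hy.1⟩) ∈ In Y ⊓ centralizer {α} :=
        ⟨⟨_, rfl⟩, (mem_cen hZ).2 (h4 y hy)⟩
      exact mem_normalizer_iff.2 fun n => ⟨hN.nrm _ h5 n, fun e => by
        simpa [mul_assoc] using hN.nrm _ (inv_mem h5) _ e⟩, by
      rintro _ ⟨y, hy, rfl⟩ ⟨n, hn⟩
      refine (D.ker y).1 (conj_inj hZ (orderOf_eq_one_iff.1 (Nat.eq_one_of_dvd_coprimes
        (hN.cop.pow_right n) (orderOf_dvd_natCard _ hy) (orderOf_dvd_of_pow_eq_one ?_))))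
      rw [← map_pow, ← map_pow, show y ^ l ^ n = 1 from Subtype.ext hn, map_one, map_one]⟩
  refine Bal.eq_bot_of_pow hN.cop (k := 1) fun n hn => ?_
  obtain ⟨β', h6, h7⟩ := ext n
  have h8 := h6
  obtain ⟨_, _, _, _, h8⟩ := h8
  obtain ⟨c, e⟩ := h3.ker β' _ _ ⟨_, _, h8⟩ h7.1 (commute_of_ind hm h6 h7 h1 h2
    (mem_centralizer_singleton_iff.1 (hN.le hn))) fun u hu => Idc.cen D.ker h7 (y := ⟨u, hu.1⟩) (by
      obtain ⟨y, e⟩ := D.surj (n (D.π ⟨u, hu.1⟩) * (D.π ⟨u, hu.1⟩)⁻¹)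
      refine mul_inv_eq_one.1 (e ▸ (D.ker y).2 (h5 ⟨y, ?_, rfl⟩))
      have := mul_mem hn (hN.nrm _ ⟨⟨_, rfl⟩, (mem_cen hZ).2 (h4 u hu)⟩ _ (inv_mem hn))
      rw [SetLike.mem_coe, mem_comap, mem_comap, e]
      convert this using 1
      ext
      simp [mul_assoc])
  exact (pow_one l).symm ▸ (h7.pow l).unique (e ▸ ind_σ c)

omit hZ in
theorem exists_lift (hα : orderOf α = l) : ∃ β α', IsA D β ∧ Ind D β α' ∧ α' ∈ zpowers α ∧
    α ∈ zpowers α' ∧ (β ^ l = 1 ∨ β ^ l = D.σ) := by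
  obtain ⟨β, h1, h2⟩ := ext α
  have h3 : ∀ {β}, IsA D β → ∀ n : ℤ, IsA D (β ^ n) := fun h n => by
    induction n using Int.induction_on with
    | zero => exact ⟨1, 1, _, _, .one, by simp⟩
    | succ n ih => simpa only [zpow_add_one] using ih.mul h
    | pred n ih => simpa only [zpow_sub_one] using ih.mul h.inv
  have h4 := pow_orderOf_eq_one α
  rw [hα] at h4
  obtain ⟨c, e⟩ := (zpow_natCast β l ▸ h3 h1 l).ker (fun _ => hm) (h4 ▸ h2.pow l)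
  have h5 : ∀ u v : ℤ, IsA D (β ^ u * D.σ ^ v) ∧ Ind D (β ^ u * D.σ ^ v) (α ^ u) ∧
      (β ^ u * D.σ ^ v) ^ l = D.σ ^ (c * u + v * l) := fun u v =>
    ⟨(h3 h1 u).mul (h3 ⟨1, _, _, _, sa_σ D, by simp⟩ v),
      by simpa using Ind.mul (Idc.zpow h2 u) (ind_σ v), by
      rw [(h2.1.zpow_zpow u v).mul_pow, zpow_add, zpow_mul, zpow_mul, ← zpow_natCast (β ^ u),
        ← zpow_mul, mul_comm u, zpow_mul, zpow_natCast, zpow_natCast, ← e]⟩
  by_cases h6 : (l : ℤ) ∣ c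
  · obtain ⟨c, rfl⟩ := h6
    obtain ⟨e1, e2, e3⟩ := h5 1 (-c)
    exact ⟨_, _, e1, e2, ⟨1, rfl⟩, ⟨1, by simp⟩, .inl (e3.trans (by simp [mul_comm]))⟩
  · obtain ⟨v, u, e⟩ := (Nat.prime_iff_prime_int.1 hl.out).coprime_iff_not_dvd.2 h6
    obtain ⟨e1, e2, e3⟩ := h5 u v
    refine ⟨_, _, e1, e2, ⟨u, rfl⟩, ⟨c, ?_⟩, .inr (by rw [e3, mul_comm c, add_comm, e, zpow_one])⟩
    simp only [← zpow_mul, eq_sub_of_add_eq' e]
    rw [zpow_sub, mul_comm, zpow_mul, zpow_natCast, h4]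
    simp

omit hZ ext in
variable (D) in
include D in
theorem dvd_card_Y (hl' : l = 2 ∨ l = 3) (hlp : l ≠ p) : l ∣ Nat.card Y := by
  have := D.finite
  have h0 := isPos_simple (R := R) (Classical.arbitrary ι)
  generalize R.simple _ = r at h0
  have h1 : D.C.x r 1 * D.C.x (R.neg r) (-l) ∈ fix D.σ := by
    rw [mem_fix, σ_eq hm, map_mul, D.alg.pow_x, D.alg.pow_x, one_pow, ← iterateFrobenius_def,
      map_neg, map_natCast]
  by_contra h3
  have h4 := (D.ker ⟨_, h1⟩).1 (orderOf_eq_one_iff.1 (Nat.eq_one_of_dvd_coprimes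
    (((Nat.Prime.coprime_iff_not_dvd hl.out).2 h3).pow_left 2) (orderOf_dvd_of_pow_eq_one (by
      rw [← map_pow, ← map_one D.π]
      exact congrArg _ (Subtype.ext (x_pow_sq D.alg.hMul hl' r (one_mul _)))))
    (orderOf_dvd_natCard _)))
  have h5 := D.alg.faithful.eq_one_of_B_V ((Subgroup.mul_mem_cancel_left _ (D.C.U_le_B
    (D.C.x_mem_U h0 1))).1 (D.C.H_le_B ((D.alg.faithful.mem_center_iff D.alg.top).1 h4).1))
    (D.C.x_mem_V (isPos_neg_iff.not.2 (not_not.2 h0)) _)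
  rw [D.alg.faithful.x_eq_one_iff, neg_eq_zero, CharP.cast_eq_zero_iff D.k p] at h5
  exact hlp ((Nat.prime_dvd_prime_iff_eq Fact.out hl.out).1 h5).symm

theorem main (hlp : l ≠ p) (hα : orderOf α = l) (hn : ∀ s, ¬ Ind D (MulAut.conj s) α)
    (hR : l ≠ 2 → l ≠ 3 → Rig R l)
    (hG : ∀ β π a t, Dg D.C p β π a → π ≠ 1 → β ^ l = 1 → Commute β (D.φ ^ m) → t ∈ cfix β →
      t ^ l ∈ center D.G → t ∉ center D.G → GA D.C p l (D.φ ^ m) β) :
    In Y ⊓ centralizer {α} ≠ ⊥ ∧ (l ∣ Nat.card ↥(In Y ⊓ centralizer {α}) → Bal.Good l (In Y) α) ∧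
      (¬ l ∣ Nat.card ↥(In Y ⊓ centralizer {α}) →
        l ≠ 2 ∧ l ≠ 3 ∧ ∃ s, ∃ j : ℕ, Ind D (MulAut.conj s * D.φ ^ j) α) := by
  have := D.finite
  obtain ⟨β, α', h1, h2, h3, h4, h5⟩ := exists_lift hm ext hα
  have hc : centralizer {α} = centralizer {α'} := by
    have key : ∀ {α α' : MulAut Y}, α' ∈ zpowers α → centralizer {α} ≤ centralizer {α'} := by
      rintro α _ ⟨c, rfl⟩ g hg
      exact mem_centralizer_singleton_iff.2 (Commute.zpow_right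
        (mem_centralizer_singleton_iff.1 hg) c)
    exact (key h3).antisymm (key h4)
  obtain ⟨c, h4⟩ := (isOfFinOrder_of_finite α').mem_powers_iff_mem_zpowers.2 h4
  have h6 := h1
  obtain ⟨s, ν, π, a, h7, e⟩ := h6
  have h6 : Dg D.C p β π a := ⟨s, ν, h7, e⟩
  have h8 : β ^ l = 1 → π ≠ 1 := by
    rintro e rfl
    obtain ⟨s, rfl⟩ := h6.inner D.alg D.conn hl.out.ne_zero e
    exact hn (s ^ c) (h4 ▸ map_pow MulAut.conj s c ▸ h2.pow c)
  have h9 : ¬ l ∣ Nat.card ↥(In Y ⊓ centralizer {α}) → (l ≠ 2 ∧ l ≠ 3) ∧ β ^ l = D.σ ∧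
      ∃ j : ℕ, 0 < j ∧ ν = D.φ ^ j := fun h9 => by
    have h10 := not_or.1 fun e => h9 (dvd_card hZ hα (dvd_card_Y D hm e hlp))
    obtain rfl := hR h10.1 h10.2 π (h6.bond D.alg) (h5.elim
      (fun e => ((e ▸ h6.pow l).unique D.alg (.of_sa .one)).1)
      fun e => ((e ▸ h6.pow l).unique D.alg (.of_sa (sa_σ D))).1)
    replace h5 := h5.resolve_left (h8 · rfl)
    have h11 := congrFun ((h5 ▸ h6.pow l).unique D.alg (.of_sa (sa_σ D))).2 (Classical.arbitrary ι)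
    rw [h7.eq_frob D.alg D.conn (Classical.arbitrary ι)]
    simp only [one_pow, Perm.one_apply, sum_const, card_range, nsmul_eq_mul] at h11
    generalize a _ = j at h11
    have h12 : 0 < j := pos_of_mul_pos_right (h11 ▸ Int.natCast_pos.2 hm) (Int.natCast_nonneg l)
    lift j to ℕ using h12.le
    exact ⟨h10, h5, j, by omega, zpow_natCast _ _⟩
  refine ⟨fun h10 => ?_, fun h10 N hN => ?_, fun h10 => ?_⟩
  · obtain ⟨-, h11, j, hj, rfl⟩ := h9 (by simp [h10, hl.out.one_lt.ne'])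
    obtain ⟨g, -, rfl⟩ := D.alg.lang j hj Set.univ s (D.alg.mem s)
    have h0 := isPos_simple (R := R) (Classical.arbitrary ι)
    generalize R.simple _ = r at h0
    have h12 : g⁻¹ * D.C.x r 1 * g ∈ fix β := by simp [mem_fix, e, D.alg.pow_x, mul_assoc]
    obtain ⟨_, h13⟩ := h2.2 ⟨_, h11 ▸ fix_le_pow _ l h12⟩
    have h14 := (D.ker _).1 (conj_inj hZ (h10.le ⟨⟨_, rfl⟩, hc ▸ (mem_cen hZ).2
      (h13.symm.trans (congrArg D.π (Subtype.ext h12)))⟩))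
    replace h14 := map_mem_center (MulAut.conj g) h14
    simpa [mul_assoc, D.alg.faithful.x_eq_one_iff] using D.alg.faithful.eq_one_of_U_H (by
      simpa [mul_assoc] using D.C.x_mem_U h0 1) ((D.alg.faithful.mem_center_iff D.alg.top).1 h14).1
  · obtain ⟨⟨_, ⟨y, rfl⟩, h11⟩, h12⟩ := exists_prime_orderOf_dvd_card' l h10
    obtain ⟨t, rfl⟩ := D.surj y
    rw [← orderOf_coe] at h12
    have h13 : t.1 ∈ cfix β := Idc.cen D.ker h2 ((mem_cen hZ).1 (hc ▸ h11))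
    have h14 : t.1 ^ l ∈ center D.G := (D.ker (t ^ l)).1 (conj_inj hZ (by
      rw [map_pow, map_pow, ← h12, pow_orderOf_eq_one]))
    have h15 : t.1 ∉ center D.G := fun e => hl.out.one_lt.ne (by simp [← h12, (D.ker t).2 e])
    refine good_of_ga hZ hm ext h1 h2 ?_ N ⟨hN.cop, hc ▸ hN.le, hc ▸ hN.nrm⟩
    rw [σ_eq hm] at h5 ⊢
    exact h5.elim (fun e => hG β π a t h6 (h8 e) e (σ_eq (D := D) hm ▸ h2.1) h13 h14 h15)
      fun e => ga_field D.alg D.conn hlp hm h6 e h13 h14 h15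
  · obtain ⟨h11, -, j, -, rfl⟩ := h9 h10
    obtain ⟨s', e'⟩ := Fr.zpow (φ := D.φ) (μ := j) ⟨s, e.trans (by simp)⟩ c
    exact ⟨h11.1, h11.2, s', j * c, h4 ▸ by simpa [← e', ← zpow_natCast] using h2.pow c⟩

end Cfsg.Lib.LB
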