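import Cfsg.Agent.Lib.LB.Bru

/-! # Subgroups normalised by the common fixed points -/

set_option autoImplicit false
set_option linter.unusedSectionVars false

namespace Cfsg.Lib.LB

open Finset Cfsg.Lib.Chev Cfsg.Lib.Chev.RootSys Cfsg.Lib.Chev.PreSys Cfsg.Lib.Chev.ChevSys
  Cfsg.Lib.Alg Equiv Cfsg.Lib.HB Cfsg.Lib.KO Cfsg.Lib.Root Subgroup Cfsg.Lib.Twisted Cfsg.Lib.AbS
open Cfsg.Lib.KI hiding Nrm

variable {ι Φ : Type} [Fintype ι] [DecidableEq ι] {R : RootSys ι Φ} {k : Type*} [Field k]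
  {G : Type*} [Group G] {C : ChevSys R k G} [Fintype Φ] {p l : ℕ} [hp : Fact p.Prime]
  [hl : Fact l.Prime] {θ τ : MulAut G}

theorem lang_fix (hlp : l ≠ p) {K : Subgroup G} (hL : Lang τ K) (h1 : ∀ g ∈ K, θ g ∈ K)
    (h2 : θ ^ l = 1) (hc : Commute θ τ) [Finite (fix τ)] (h3 : IsPGroup p K) :
    Lang τ (K ⊓ fix θ) := fun c hc' => by
  obtain ⟨b, hb, e⟩ := hL c hc'.1
  let P : G → Prop := fun y => y ∈ K ∧ y⁻¹ * τ y = c
  have h4 : ∀ (n : ℕ) y, P y → P ((θ ^ n) y) := fun n y hy => by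
    induction n with
    | zero => exact hy
    | succ n ih => exact pow_succ' θ n ▸ ⟨h1 _ ih.1, by
        rw [MulAut.mul_apply, ← MulAut.mul_apply _ τ, ← hc.eq, MulAut.mul_apply, ← map_inv,
          ← map_mul, ih.2, mem_fix.1 hc'.2]⟩
  have h5 : ∀ y, P (MulAut.toPerm G θ y) ↔ P y := fun y => ⟨fun hy => by
    have := h4 (l - 1) (θ y) hy
    rwa [← MulAut.mul_apply, ← pow_succ, Nat.sub_add_cancel hl.out.pos, h2] at this,
    by simpa using! h4 1 y⟩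
  have : Finite ↥(K ⊓ fix τ) := Finite.of_injective _ (inclusion_injective inf_le_right)
  have e1 : ↥(K ⊓ fix τ) ≃ Subtype P := (Equiv.mulRight b).subtypeEquiv fun y => by
    simp only [Subgroup.mem_inf, mem_fix, Equiv.coe_mulRight, map_mul, ← e, K.mul_mem_cancel_right hb,
      mul_inv_rev, mul_assoc, mul_right_inj, inv_mul_eq_iff_eq_mul, mul_left_inj]
  have := Finite.of_equiv _ e1
  have := Fintype.ofFinite (Subtype P)
  obtain ⟨n, hn⟩ := IsPGroup.iff_card.1 (h3.to_le (inf_le_left : K ⊓ fix τ ≤ K))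
  obtain ⟨y, hy⟩ := Perm.exists_fixed_point_of_prime (p := l) (n := 1)
    (σ := (MulAut.toPerm G θ).subtypePerm h5) (by
      rw [← Nat.card_eq_fintype_card, ← Nat.card_congr e1, hn]
      exact fun h => hlp ((Nat.prime_dvd_prime_iff_eq hl.out hp.out).1 (hl.out.dvd_of_dvd_pow h)))
    (Equiv.ext fun y => Subtype.ext (by
      rw [Perm.subtypePerm_pow]
      change (MulAut.toPerm G θ ^ l ^ 1) y = y
      rw [← map_pow, pow_one, h2]
      rfl))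
  exact ⟨y, ⟨y.2.1, congrArg Subtype.val hy⟩, y.2.2⟩

omit hp hl in
theorem inv_conj_pow (a b : G) (n : ℕ) : (a⁻¹ * b * a) ^ n = a⁻¹ * b ^ n * a := by
  simpa using conj_pow (a := a⁻¹) (i := n)

theorem eq_one_of_pe (hlp : l ≠ p) {z : G} {a b : ℕ} (h1 : z ^ l ^ a = 1) (h2 : z ^ p ^ b = 1) :
    z = 1 := eq_one_of_pow ((((Nat.coprime_primes hl.out hp.out).2 hlp).pow_left a).coprime_dvd_left
  (orderOf_dvd_of_pow_eq_one h1)) h2

variable [CharP k p] [IsAlgClosed k] {ρ x : Perm Φ} {e c : Φ → kˣ} {π : Perm ι} {d : ℕ}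
  {T : ChevTab R} {φ : MulAut G}

namespace NF

variable (h : NF C p l θ ρ e π τ x c d)
include h

theorem x_x (r : Φ) : x (x r) = r := by
  rcases h.x_cases with rfl | ⟨-, a, -, -, rfl⟩
  exacts [rfl, R.sref_sref _ _]

theorem fJ_x (r : Φ) : fJ {i | π i = i} (R.α (x r)) = fJ {i | π i = i} (R.α r) := by
  rcases h.x_cases with rfl | ⟨-, a, ha, -, rfl⟩
  exacts [rfl, fJ_sref (J := {i | π i = i}) ha r]

theorem ht_x {r : Φ} (h1 : R.ht (x r) = R.ht r) : x r = r := by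
  rcases h.x_cases with rfl | ⟨-, a, ha, -, rfl⟩
  · rfl
  · rw [← refl_simple] at h1 ⊢
    rw [ht_refl, R.ht_simple] at h1
    exact refl_eq_self (by omega)

theorem exists_lead (ha : C.Alg T p φ) (st : IsSt φ τ) (hlp : l ≠ p) {r : Φ}
    (hr : fJ {i | π i = i} (R.α r) = 1) : ∃ g ∈ C.XS {r | 1 ≤ fJ {i | π i = i} (R.α r)} ⊓
      (fix τ ⊓ fix θ), lc C {r | 1 ≤ fJ {i | π i = i} (R.α r)} r g ≠ 0 := by
  have hA := gd_of (R := R) (f := fJ {i | π i = i}) (fun r h => (fJ_pos_iff.1 h).1) one_pos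
  have h1 := fJ_perm h.aut h.hπ
  have h2 := h.fJ_x
  have h3 : ∀ r, fJ {i | π i = i} (R.α r) = 1 → Act ρ e r := fun r hr e =>
    (ne_of_fJ h.aut h.hπ hr e).elim
  generalize fJ {i | π i = i} = f at *
  have a1 : ∀ r ∈ {r | 1 ≤ f (R.α r)}, ρ r ∈ {r | 1 ≤ f (R.α r)} := fun r hr => hr.trans_eq (h1 r).symm
  have a2 : ∀ r ∈ {r | 1 ≤ f (R.α r)}, x r ∈ {r | 1 ≤ f (R.α r)} := fun r hr => hr.trans_eq (h2 r).symm
  have h4 := fun t => nP_mem (τ := θ) (fun _ => h.nrm.mem_XS a1) (C.x_mem (hA.sub hr) t) (dg l ρ r)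
  have h5 := fun t => (h.toGph.lc_oP hA a1 (hA.sub hr) hr t).1 rfl
  by_cases h6 : x r = r
  · obtain ⟨a, -, h7, -, h8, -⟩ := h.exists_ab h6
    exact ⟨_, ⟨h4 a, h.oP_mem (h3 r hr) h6 (x_mem_XR r a) h8⟩, by rwa [h5]⟩
  have h7 := h.nrm'.mul h.nrm'
  obtain ⟨a, h8, h9⟩ := exists_root' (p := p) (c (x r) * c r ^ p ^ d) (M := d + d)
    (by have := h.d_pos; omega) Polynomial.X_ne_zero
    (by simpa using Nat.one_lt_pow (by have := h.d_pos; omega) hp.out.one_lt)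
  rw [Polynomial.eval_X] at h9
  have h10 := h.toGph.oP_fix (h3 r hr) (x_mem_XR r a)
  have h10' := mul_mem h10 (map_mem_fix h.comm.symm h10)
  have h11 : τ (τ (nP θ (dg l ρ r) (C.x r a))) = nP θ (dg l ρ r) (C.x r a) := by
    rw [← MulAut.mul_apply, h.toGph.map_oP h7 (h.comm.mul_right h.comm).symm, h7.x, h8,
      Perm.mul_apply, h.x_x]
  have h12 : lc C {r | 1 ≤ f (R.α r)} r (τ (nP θ (dg l ρ r) (C.x r a))) = 0 := by
    rw [h.toGph.map_oP h.nrm' h.comm.symm, h.nrm'.x]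
    exact (h.toGph.lc_oP hA a1 (a2 r (hA.sub hr)) hr _).2 fun i e => h6 (h.ht_x (by
      rw [← ht_aut (h.toGph.aut_pow i) (h.toGph.pos_pow i) (x r), e]))
  have h13 := h4 a
  rw [← h5 a] at h9
  generalize nP θ (dg l ρ r) (C.x r a) = y at *
  have h14 := h.nrm'.mem_XS a2 h13
  have := st.finite ha.frob
  obtain ⟨n, hn⟩ := exists_pow_eq_one (C := C) p (hA.diff le_rfl) fun r hr => hA.ht r hr.1
  obtain ⟨b, hb, e1⟩ := lang_fix hlp (lang_XS ha st h.nrm'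
    (A := {r | 1 ≤ f (R.α r)} \ {r | f (R.α r) = 1})
    fun r hr => ⟨a2 r hr.1, fun e => hr.2 ((h2 r).symm.trans e)⟩)
    (fun _ => h.nrm.mem_XS fun r hr => by exact ⟨a1 r hr.1, fun e => hr.2 ((h1 r).symm.trans e)⟩)
    h.pow h.comm
    (fun g => ⟨n, Subtype.ext (hn g g.2)⟩) ((y * τ y)⁻¹ * τ (y * τ y))
    ⟨hA.mem_of_lc h.F (mul_mem (inv_mem (mul_mem h13 h14)) (h.nrm'.mem_XS a2 (mul_mem h13 h14)))
      fun s hs => by
        rw [map_mul, h11, hA.lc_mul h.F hs (inv_mem (mul_mem h13 h14)) (mul_mem h14 h13),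
          hA.lc_inv h.F hs (mul_mem h13 h14), hA.lc_mul h.F hs h13 h14, hA.lc_mul h.F hs h14 h13]
        ring,
    (fix θ).mul_mem (inv_mem h10') (map_mem_fix h.comm.symm h10')⟩
  have h15 := C.XS_mono Set.sdiff_subset (inv_mem hb.1)
  refine ⟨y * τ y * b⁻¹, ⟨mul_mem (mul_mem h13 h14) h15, mem_fix.2 ?_,
    (fix θ).mul_mem h10' (inv_mem hb.2)⟩, ?_⟩
  · rw [map_mul, map_inv, ← mul_inv_cancel_left (y * τ y) (τ _), ← e1]
    group
  · rwa [hA.lc_mul h.F hr (mul_mem h13 h14) h15, hA.lc_mul h.F hr h13 h14, h12,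
      hA.lc_eq h.F hr (t := 0) (g := b⁻¹) (by
        simpa using C.XS_mono (Set.sdiff_subset_sdiff_right (Set.singleton_subset_iff.2 hr)) hb.1),
      add_zero, add_zero]

theorem tor (ha : C.Alg T p φ) (st : IsSt φ τ) (hlp : l ≠ p) (hc : R.Conn) {y : G} (hy : y ∈ C.H)
    (h1 : ∀ u ∈ C.U ⊓ (fix τ ⊓ fix θ), y * u * y⁻¹ = u) : y ∈ center G := by
  obtain ⟨t, ht⟩ := C.exists_acts_of_mem_H hy
  have hA := gd_of (R := R) (f := fJ {i | π i = i}) (fun r h => (fJ_pos_iff.1 h).1) one_pos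
  have h2 : ∀ r, fJ {i | π i = i} (R.α r) = 1 → R.chr t r = 1 := fun r hr => by
    obtain ⟨g, hg, h2⟩ := h.exists_lead ha st hlp hr
    have := lc_map (Nrm.one.conj (p := p) ht) h.F hA (fun _ => id) hr hr hg.1
    simp only [mul_one, MulAut.conj_apply, h1 g ⟨C.XS_mono hA.pos hg.1, hg.2⟩, Perm.one_apply,
      Pi.zero_apply, pow_zero, pow_one, Pi.one_apply] at this
    exact Units.ext ((mul_eq_right₀ h2).1 this.symm)
  have h3 : ∀ i, π i ≠ i → fJ {i | π i = i} (R.α (R.simple i)) = 1 := fun i hi => by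
    classical
    exact (sum_eq_single i (fun j _ e => by simp [R.α_simple, e]) (by simp)).trans (by
      simp [R.α_simple, hi])
  have h4 : ∀ i, π i = i → ∃ r, fJ {i | π i = i} (R.α r) = 1 ∧ R.pair (R.simple i) r ≠ 0 := by
    by_contra! h0
    obtain ⟨i, hi, j, hj, h4⟩ := hc {i | π i = i ∧ ∀ r, fJ {i | π i = i} (R.α r) = 1 →
      R.pair (R.simple i) r = 0} h0 (by
        obtain ⟨i, hi⟩ := not_forall.1 (mt Equiv.ext h.ty.1)
        exact ⟨i, fun e => hi e.1⟩)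
    by_cases h5 : π j = j
    · obtain ⟨r, h6, h7⟩ : ∃ r, _ ∧ _ := by simpa [h5] using hj
      have := hi.2 _ ((fJ_sref (J := {i | π i = i}) h5 r).trans h6)
      rw [← refl_simple, pair_refl, hi.2 r h6, pair_simple_simple, zero_sub, neg_eq_zero] at this
      exact mul_ne_zero h7 h4 this
    · exact h4 (R.pair_simple_simple i j ▸ hi.2 _ (h3 j h5))
  refine (h.F.mem_center_iff h.top).2 ⟨hy, ?_⟩
  rw [← R.chr_eq_one_iff.2 fun i => (R.chr_simple t i).symm.trans ?_]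
  · exact ht
  by_cases hi : π i = i
  · obtain ⟨r, h5, h6⟩ := h4 i hi
    have h7 := h2 _ ((fJ_sref (J := {i | π i = i}) hi r).trans h5)
    have h8 := (inJ_simple_iff (R := R) (J := {i | π i = i})).2 hi
    have h9 := pair_le_one h.ln (r := R.simple i) (s := r) (by
      rintro rfl
      exact zero_ne_one (h8.fJ_eq.symm.trans h5))
    have h10 := neg_one_le_pair h.ln (r := R.simple i) (s := r) (by
      rintro rfl
      exact zero_ne_one (h8.neg.fJ_eq.symm.trans h5))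
    rw [← refl_simple, chr_refl, h2 r h5, one_mul] at h7
    rcases (by omega : R.pair (R.simple i) r = 1 ∨ R.pair (R.simple i) r = -1) with e | e <;>
      simpa [e] using h7
  · exact h2 _ (h3 i hi)

theorem mem_B (hlp : l ≠ p) {N : Subgroup G} (h1 : fix τ ⊓ fix θ ≤ normalizer (N : Set G))
    (h2 : ∀ x ∈ N, PE l x → x ∈ center G) {y : G} (h3 : y ∈ cfix θ) (h4 : y ∈ cfix τ)
    (h5 : ∀ u ∈ C.U ⊓ (fix τ ⊓ fix θ), y * u * y⁻¹ * u⁻¹ ∈ N) : y ∈ C.B := by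
  refine (h.bru h3 h4).resolve_right ?_
  rintro ⟨z, h6, h7, a, ha, b, hb, c, hc, rfl⟩
  obtain ⟨n, hn, -⟩ := exists_pow_U C p
  have h8 := mul_mem (mul_mem ha hb) hc
  have h9 := mul_pow_mem ((mem_normalizer_iff.1 (h1 ha.2) _).1 (h5 b hb)) (h1 h8.2) (p ^ n)
  rw [hn _ h8.1, inv_one, mul_one, show _ * (a * b * c) = a * (y * b * y⁻¹) * c by group] at h9
  exact h7 (h2 _ (zpowers_le.2 h9 (mem_zpowers_pow_iff.2 (((((Nat.coprime_primes hp.out hl.out).2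
    hlp.symm).pow n 2)).coprime_dvd_right (orderOf_dvd_of_pow_eq_one h6)))) ⟨2, h6⟩)

theorem mem_H (hlp : l ≠ p) {N : Subgroup G} (h1 : fix τ ⊓ fix θ ≤ normalizer (N : Set G))
    (h2 : ∀ x ∈ N, PE l x → x ∈ center G) {y : G} (h3 : y ∈ cfix θ) (h4 : y ∈ cfix τ)
    (h5 : ∀ u ∈ fix τ ⊓ fix θ, PE p u → y * u * y⁻¹ * u⁻¹ ∈ N) : y ∈ C.H :=
  let ⟨n, h6, h7⟩ := exists_pow_U C p
  h.F.mem_H_of_B_VH (h.mem_B hlp h1 h2 h3 h4 fun u hu => h5 u hu.2 ⟨n, h6 u hu.1⟩)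
    (op_B.le (h.op.mem_B hlp h1 h2 h3 h4 fun u hu => h5 u hu.2 ⟨n, h7 u (op_U.le hu.1)⟩))

theorem exists_ne {n : ℕ} (hn : 1 < n) : ∃ u ∈ fix (τ ^ n) ⊓ fix θ, PE p u ∧ τ u ≠ u := by
  obtain ⟨i, hi⟩ := not_forall.1 (mt Equiv.ext h.ty.1)
  obtain ⟨δ, h1, h2, h3, -⟩ := h.toGph.exists_fixed h.hπ h.x_cases
    (h.toGph.act_map h.nrm' h.comm) (isPos_simple i) fun e =>
      (hi ((h.toGph.fix_simple h.hπ).1 e)).elim
  obtain ⟨c', h4⟩ := h.nrm'.pow n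
  have h5 := Nat.one_lt_pow h.d_pos.ne' hp.out.one_lt
  have h6 : (Polynomial.C (c δ : k) * .X ^ p ^ d - .X).natDegree = p ^ d := by
    rw [Polynomial.natDegree_sub_eq_left_of_natDegree_lt] <;>
      simp [h5]
  have h0 := (Nat.lt_mul_iff_one_lt_left h.d_pos).2 hn
  obtain ⟨a, h7, h8⟩ := exists_root' (p := p) (c' δ) (h.d_pos.trans h0)
    (Polynomial.ne_zero_of_natDegree_gt (h5.trans_eq h6.symm))
    (h6.trans_lt (Nat.pow_lt_pow_right hp.out.one_lt h0))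
  obtain ⟨m, h9, -⟩ := exists_pow_U C p
  have h10 : (x ^ n) δ = δ := Perm.pow_apply_eq_self_of_apply_eq_self h3 n
  refine ⟨nP θ (dg l ρ δ) (C.x δ a), ⟨mem_fix.2 ?_, h.toGph.oP_fix h2 (x_mem_XR δ a)⟩,
    ⟨m, h9 _ (h.toGph.oP_mem_U (C.x_mem_U h1 a) _)⟩, fun e => h8 ?_⟩
  · rw [h.toGph.map_oP h4 (h.comm.pow_right n).symm, h4.x, h10, sum_const, card_range,
      smul_eq_mul, h7]
  · rw [h.toGph.map_oP h.nrm' h.comm.symm, h.nrm'.x, h3] at e
    simp [h.toGph.oP_inj h1 e]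

end NF

variable (p l) in
/-- the properties of the centraliser of a graph automorphism -/
structure GP (θ τ : MulAut G) : Prop where
  inn : ∀ N, Adm l τ θ N → N ≤ center G
  cen : ∀ y ∈ cfix θ, y ∈ cfix τ → (∀ u ∈ fix τ ⊓ fix θ, PE p u → y * u * y⁻¹ = u) → y ∈ center G
  fld : ∀ n, 1 < n → ∃ u ∈ fix (τ ^ n) ⊓ fix θ, PE p u ∧ τ u ≠ u

theorem NF.gp (h : NF C p l θ ρ e π τ x c d) (ha : C.Alg T p φ) (st : IsSt φ τ) (hlp : l ≠ p)
    (hc : R.Conn) : GP p l θ τ := by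
  obtain ⟨n, hn, -⟩ := exists_pow_U C p
  refine ⟨fun N hN y hy => ?_, fun y h1 h2 h3 => h.tor ha st hlp hc (h.mem_H hlp (N := ⊥)
    (by rw [normalizer_eq_top]; exact le_top) (by simp) h1 h2 fun u hu e => by simp [h3 u hu e]) fun u hu =>
      h3 u hu.2 ⟨n, hn u hu.1⟩, fun _ => h.exists_ne⟩
  have h1 : ∀ y ∈ N, ∀ u ∈ fix τ ⊓ fix θ, y * u * y⁻¹ * u⁻¹ ∈ N := fun y hy u hu => by
    simpa [mul_assoc] using mul_mem hy ((mem_normalizer_iff.1 (hN.nrm hu) _).1 (inv_mem hy))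
  have h2 : N ≤ C.H := fun y hy => h.mem_H hlp hN.nrm hN.pe (hN.cen y hy)
    (show _ ∈ center G by simp [mem_fix.1 (hN.le hy)]) fun u hu _ => h1 y hy u hu
  exact h.tor ha st hlp hc (h2 hy) fun u hu => mul_inv_eq_one.1 (h.F.eq_one_of_U_H (mul_mem
    ((mem_normalizer_iff.1 (C.H_le_normalizer _ (h2 hy)) u).1 hu.1) (inv_mem hu.1))
      (h2 (h1 y hy u hu.2)))

omit hp hl in
theorem GP.conj (ψ : MulAut G) (h : GP p l θ τ) : GP p l (ψ⁻¹ * θ * ψ) (ψ⁻¹ * τ * ψ) := by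
  refine ⟨fun N hN y hy => ?_, fun y h1 h2 h3 => ?_, fun n hn => ?_⟩
  · have := hN.conj ψ⁻¹
    simp only [inv_inv, mul_assoc, mul_inv_cancel, mul_one, mul_inv_cancel_left] at this
    simpa using map_mem_center ψ⁻¹ (h.inn _ this (x := ψ y) (by simpa using hy))
  · have h4 : ∀ {θ}, y ∈ cfix (ψ⁻¹ * θ * ψ) → ψ y ∈ cfix θ := fun h => by
      simpa using! map_mem_center ψ h
    simpa using map_mem_center ψ⁻¹ (h.cen _ (h4 h1) (h4 h2) fun u hu e => by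
      obtain ⟨u, rfl⟩ := ψ.surjective u
      simpa using congrArg ψ (h3 u ⟨mem_fix_conj'.2 hu.1, mem_fix_conj'.2 hu.2⟩
        (by simpa using e.map ψ⁻¹)))
  · obtain ⟨u, h1, h2, h3⟩ := h.fld n hn
    obtain ⟨u, rfl⟩ := ψ.surjective u
    refine ⟨u, ⟨?_, mem_fix_conj'.2 h1.2⟩, by simpa using h2.map ψ⁻¹,
      fun e => h3 (mem_fix_conj'.1 e)⟩
    rw [inv_conj_pow]
    exact mem_fix_conj'.2 h1.1

theorem Gph.gp (h : Gph C p l θ ρ e) (hπ : ∀ i, ρ (R.simple i) = R.simple (π i)) (hT : Ty R l π)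
    (ha : C.Alg T p φ) (hR : Rep C p) (hlp : l ≠ p) (hc : R.Conn) (hd : 0 < d) {a : G}
    (h1 : Commute θ (MulAut.conj a * φ ^ d)) : GP p l θ (MulAut.conj a * φ ^ d) := by
  obtain ⟨g, hg, τ, x, h2, c, e, h3, h4, h5, h6⟩ := h.exists_nf ha hR hd h1
  have := (NF.gp ⟨h, hπ, hT, h4, hd, h5, h2, h6⟩ ha h3 hlp hc).conj (MulAut.conj g)
  rwa [← e, HB.conj_mul_conj, mem_fix.1 hg, inv_mul_cancel, map_one, one_mul] at this

end Cfsg.Lib.LB
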