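import Cfsg.Agent.Lib.LB.Tor
import Cfsg.Agent.Lib.LB.Chk

/-! # Automorphisms of order three of type `D₄` that are not inner -/

set_option autoImplicit false
set_option linter.unusedSectionVars false

namespace Cfsg.Lib.LB

open Finset Cfsg.Lib.Chev Cfsg.Lib.Chev.RootSys Cfsg.Lib.Chev.PreSys Cfsg.Lib.Chev.ChevSys
  Cfsg.Lib.Alg Equiv Cfsg.Lib.HB Cfsg.Lib.KO Cfsg.Lib.Root Subgroup Cfsg.Lib.Twisted Cfsg.Lib.AbS
open Cfsg.Lib.KI hiding Nrm
open Cfsg.Lib.HB.D4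

variable {Φ : Type} {R : RootSys (Fin 4) Φ} {k : Type*} [Field k] [Fintype Φ] (hA : IsD4 R)
include hA

theorem tv_mem_P {r : Φ} : tv R r ∈ P ↔ R.IsPos r := by
  have key : ∀ r, tv R r ∈ P → R.IsPos r := fun r hr i => by
    have := pos _ hr
    fin_cases i
    exacts [this.1, this.2.1, this.2.2.1, this.2.2.2]
  refine ⟨key r, fun hr => (List.mem_append.1 (hA.mem r)).resolve_right fun e => ?_⟩
  obtain ⟨v, hv, e⟩ := List.mem_map.1 e
  obtain ⟨s, rfl⟩ := hA.exists_tv v (List.mem_append_left _ hv)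
  exact isPos_neg_iff.1 (tv_inj ((tv_neg s).trans e) ▸ hr) (key s hv)

theorem tri_cases {u : Perm Φ} (h : Tri R u) {c : Fin 4 → kˣ} (h0 : ∀ r, R.chr c r ^ 3 = 1)
    (h1 : ∀ r, R.chr c (u r) = R.chr c r) (h2 : ¬ ∀ r, R.chr c r = 1)
    (hp : ∀ r, R.chr c r = 1 → R.IsPos r → R.IsPos (u r)) :
    (∃ w ∈ R.W, ∀ r, R.IsPos r → R.IsPos (w (u (w⁻¹ r)))) ∧ ((∀ r, R.chr c r = 1 → u r = r) ∨
      ∃ b, R.chr c b = 1 ∧ R.pair b (u b) = 0 ∧ R.pair b (u (u b)) = 0 ∧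
        ∀ r, R.chr c r = 1 → ∃ s ∈ [b, u b, u (u b)], r = s ∨ r = R.neg s) := by
  obtain ⟨r₀, h2⟩ := not_forall.1 h2
  have h3 : IsPrimitiveRoot (R.chr c r₀) 3 :=
    orderOf_eq_prime (hp := ⟨Nat.prime_three⟩) (h0 r₀) h2 ▸ IsPrimitiveRoot.orderOf _
  choose x hx e using fun i => h3.eq_pow_of_mem_rootsOfUnity (ξ := R.chr c (R.simple i)) (h0 _)
  have h4 : ∀ r, R.chr c r = R.chr c r₀ ^ dot (x 0, x 1, x 2, x 3) (tv R r) := fun r => by
    simp only [← ev_tv c r, HB.ev, ← e, dot, zpow_add, zpow_mul, zpow_natCast]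
  have h5 : ∀ r, dot (x 0, x 1, x 2, x 3) (tv R r) % 3 = 0 ↔ R.chr c r = 1 := fun r => by
    rw [h4 r, h3.zpow_eq_one_iff_dvd, Int.dvd_iff_emod_eq_zero]
    rfl
  have h6 := fun i j => (hA.pair _ _).symm.trans ((h.pair _ _).trans
    ((pair_simple_simple R i j).trans (congrFun (congrFun hA i) j)))
  have hT : ∀ i, (x i : ℤ) ∈ T := fun i => by
    have := hx i
    simp [T]
    omega
  obtain ⟨h7, h8⟩ := chk2 _ (hA.mem _) _ (hA.mem _) (h6 0 1) _ (hA.mem _) (h6 2 1) (h6 0 2) _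
    (hA.mem _) (h6 3 1) (h6 0 3) (h6 2 3) h.odd ((forall_E (R := R)).2 fun i => by
      simp only [← h.tv, h.cube]) _ (hT 0) _ (hT 1) _ (hT 2) _ (hT 3) (forall_E.2 fun i => by
    rw [← h.tv, ← Int.dvd_iff_emod_eq_zero]
    exact (h3.zpow_eq_one_iff_dvd _).1 (by rw [zpow_sub, ← h4, ← h4, h1, mul_inv_cancel]))
    (by
      by_contra! h7
      exact h2 (by simp [R.chr_eq_prod c r₀, fun i => (h5 _).1 (forall_E.1 h7 i)]))
    fun v hv e => by
      obtain ⟨r, rfl⟩ := hA.exists_tv v (List.mem_append_left _ hv)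
      rw [← h.tv, tv_mem_P hA]
      exact hp r ((h5 r).1 e) ((tv_mem_P hA).1 hv)
  refine ⟨?_, h8.imp (fun h8 r hr => tv_inj ((h.tv r).trans (h8 _ (hA.mem r) ((h5 r).2 hr)))) ?_⟩
  · let g := fun r => dot (1, 13, 169, 2197) (add (add (tv R r) (tv R (u r))) (tv R (u (u r))))
    let f : (Fin 4 → ℤ) →+ ℤ := ∑ i, (AddMonoidHom.mulRight (g (R.simple i))).comp
      (Pi.evalAddMonoidHom _ i)
    have h9 : ∀ r, f (R.α r) = g r := fun r => by
      have h9 := lin_of_refl (R := R) (u := u * u) (fun r s => by simp only [Perm.mul_apply, h.refl])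
        (fun r s => by simp only [Perm.mul_apply, h.pair]) r
      simp only [Perm.mul_apply] at h9
      simp only [f, g, Fin.sum_univ_four, dot, D4.add, tv, h9, lin_of_refl h.refl h.pair r]
      simp [R.α_simple]
      ring
    have h10 : ∀ r, g (u r) = g r := fun r => by
      simp only [g, h.cube, dot, D4.add]
      ring
    obtain ⟨w, hw, h11⟩ := R.exists_W_pos f
    refine ⟨w, hw, fun r hr => h11 _ ?_⟩
    obtain ⟨r, rfl⟩ := w.surjective r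
    rw [Chev.inv_apply, h9, h10, ← h9]
    refine (not_lt.1 fun h12 => ?_).lt_of_ne' (by
      simpa only [h9, ← h.tv] using h7 _ (hA.mem r))
    have := h11 (R.neg r) (by rwa [R.α_neg, map_neg, neg_pos])
    rw [(isAut_of_mem_W hw).neg, isPos_neg_iff] at this
    exact this hr
  · rintro ⟨b, hb, h8, h9, h10, h11⟩
    obtain ⟨b, rfl⟩ := hA.exists_tv b (List.mem_append_left _ hb)
    simp only [← h.tv, ← hA.pair] at h9 h10 h11
    exact ⟨b, (h5 b).1 h8, h9, h10, fun r hr => IsD4.of_six (h11 _ (hA.mem r) ((h5 r).2 hr))⟩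

variable {G : Type*} [Group G] {C : ChevSys R k G} {p : ℕ} [Fact p.Prime] [CharP k p]
  [IsAlgClosed k] {T : ChevTab R} {φ ν γ : MulAut G} {u ρ : Perm Φ} {E : Φ → kˣ} {S : Set Φ}
  {y : G} (h : C.Alg T p φ) (hν : Nrm C p ν u E 0)
include h hν

omit hA in
theorem exists_H_fix (h3 : 3 ≠ p) (hS : ZCl R S) (h1 : ∀ r ∈ S, u r = r) (hy : y ∈ C.H ⊔ C.XS S)
    (ht : (MulAut.conj y * ν) ^ 3 = 1) : ∃ g, g⁻¹ * y * ν g ∈ C.H := by
  have := Fintype.ofFinite S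
  obtain ⟨t, h2, χ, h4, h5⟩ := exists_acts_base h.hMul hS.base h.faithful fun j => E j.1
  have h6 := fun j : IndT R S => (hν.conj h4.inv).XR_le_fix (a := j.1) (h1 _ j.2.1) (by
    rw [h1 _ j.2.1, inv_one, Perm.one_apply, inv_mul_eq_one]
    exact h5 j)
  have h7 : C.XS S ≤ fix (MulAut.conj t⁻¹ * ν) := C.rebase_grp hS.base ▸
    (C.rebase hS.base).grp_le_of_simple (fun j s => h6 j (x_mem_XR _ s))
      fun j s => h6 j (C.x_mem (.inr rfl) s)
  have h8 : ∀ g ∈ C.XS S, ν g = t * g * t⁻¹ := fun g hg => by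
    simpa [mul_assoc] using congrArg (MulAut.conj t) (mem_fix.1 (h7 hg))
  have h9 := mul_mem hy (mem_sup_left h2.1)
  have h10 : ∀ g ∈ C.XS S, ∀ n : ℕ, ((MulAut.conj y * ν) ^ n) g = MulAut.conj ((y * t) ^ n) g :=
    fun g hg n => by
      induction n with
      | zero => simp
      | succ n ih =>
        rw [pow_succ', MulAut.mul_apply, ih, MulAut.mul_apply, MulAut.conj_apply _ g, h8 _ ((mem_normalizer_iff.1 (sup_le
          (C.H_le_normalizer S) Subgroup.le_normalizer (pow_mem h9 n)) g).1 hg), pow_succ']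
        simp [-conj_pow, -map_pow, mul_assoc]
  obtain ⟨d, hd⟩ := h.hMul.exists_torus (mem_H_of_norm h.faithful hS (pow_mem h9 3) fun r hr s =>
    ⟨r, hr, .rfl, s, (h10 _ (C.x_mem hr s) 3).symm.trans (by rw [ht, MulAut.one_apply])⟩)
  obtain ⟨a, ha, c, e⟩ := cjK_of_coprime h le_sup_left (fun n hn => h.lang_sup hn S) h9 (by
    have h11 := h.coprime_orderOf_tor d
    rw [hd] at h11
    exact (h11.mul_left ((Nat.coprime_primes Nat.prime_three Fact.out).2 h3)).coprime_dvd_left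
      (orderOf_dvd_of_pow_eq_one (by rw [mul_comm, pow_mul, pow_orderOf_eq_one])))
  obtain ⟨b, hb, v, hv, rfl⟩ := C.mem_H_sup_iff.1 ha
  refine ⟨b * v * b⁻¹, ?_⟩
  rw [h8 _ ((mem_normalizer_iff.1 (C.H_le_normalizer S hb) v).1 hv), eq_mul_inv_of_mul_eq e]
  convert mul_mem (mul_mem (mul_mem hb (h.hMul.torus_mem_H c)) (inv_mem hb)) (inv_mem h2.1) using 1
  group

theorem exists_H_perm (hS : ZCl R S) {b : Φ} (h1 : R.pair b (u b) = 0)
    (h2 : R.pair b (u (u b)) = 0) (h3 : u (u (u b)) = b) (hb : b ∈ S)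
    (h4 : ∀ r ∈ S, ∃ s ∈ [b, u b, u (u b)], r = s ∨ r = R.neg s) (hy : y ∈ C.XS S)
    (ht : (MulAut.conj y * ν) ^ 3 = 1) : ∃ g, g⁻¹ * y * ν g ∈ C.H := by
  have h5 : R.pair (u b) (u (u b)) = 0 := (hν.pair_eq_zero h.faithful h.hMul).2 h1
  have c1 := @commute_XR _ _ _ _ _ _ _ _ _ C hA.ln _ _ h1
  have c2 := @commute_XR _ _ _ _ _ _ _ _ _ C hA.ln _ _ h2
  have c3 := @commute_XR _ _ _ _ _ _ _ _ _ C hA.ln _ _ h5
  have h6 : ∀ r ∈ S, ∀ t, C.x r t ∈ XR C b ∧ (u (u (u r)) = r) ∨ C.x r t ∈ XR C (u b) ∨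
      C.x r t ∈ XR C (u (u b)) := fun r hr t => by
    obtain ⟨s, hs, e⟩ := h4 r hr
    have := XR_of (C := C) e ▸ x_mem_XR r t
    simp only [List.mem_cons, List.not_mem_nil, or_false] at hs
    rcases hs with rfl | rfl | rfl
    · exact .inl ⟨this, by rcases e with rfl | rfl <;> simp [hν.neg, h3]⟩
    exacts [.inr (.inl this), .inr (.inr this)]
  obtain ⟨_, h7, z₃, h8, rfl⟩ := (mem_sup_iff_of_le_normalizer (K := XR C b ⊔ XR C (u b))
    fun z hz => normalizer_inf_normalizer_le_normalizer_sup _ _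
      ⟨centralizer_le_normalizer _ fun x hx => (c2 hx hz).eq,
        centralizer_le_normalizer _ fun x hx => (c3 hx hz).eq⟩).1 (XS_le.2 (fun r hr t => by
    rcases h6 r hr t with e | e | e
    exacts [mem_sup_left (mem_sup_left e.1), mem_sup_left (mem_sup_right e), mem_sup_right e]) hy)
  obtain ⟨z₁, h9, z₂, h10, rfl⟩ := (mem_sup_iff_of_le_normalizer
    fun z hz => centralizer_le_normalizer _ fun x hx => (c1 hx hz).eq).1 h7
  have h11 := mul_mem h8 (hν.mem_XR h10)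
  have h12 := mul_mem h9 (h3 ▸ hν.mem_XR h11)
  have h13 : (z₂ * (z₃ * ν z₂))⁻¹ * (z₁ * z₂ * z₃) * ν (z₂ * (z₃ * ν z₂)) =
      z₁ * ν (z₃ * ν z₂) := by
    rw [map_mul ν z₂, (c1 h9 h10).eq, mul_inv_rev, mul_assoc _ z₂⁻¹, mul_assoc z₂,
      inv_mul_cancel_left, ← mul_assoc, ← mul_assoc, ← (c2 h9 (inv_mem h11)).eq]
    group
  refine ⟨_, h13.symm ▸ (?_ : z₁ * ν (z₃ * ν z₂) ∈ C.H)⟩
  have h14 := congrArg (fun x => (MulAut.conj (z₂ * (z₃ * ν z₂)))⁻¹ * x *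
    MulAut.conj (z₂ * (z₃ * ν z₂))) ht
  rw [mul_one, inv_mul_cancel, ← inv_conj_pow, conj_twist, h13, conj_mul_pow] at h14
  generalize z₁ * ν (z₃ * ν z₂) = z at *
  obtain ⟨E', h15⟩ := hν.pow 3
  have h16 := hν.mem_XR h12
  refine mem_H_of_norm h.faithful hS (mem_sup_right (C.XS_mono (by
    rintro _ (rfl | rfl)
    exacts [hb, hS.neg hb]) h12)) fun r hr t => ⟨r, hr, .rfl, ?_⟩
  rcases h6 r hr t with e | e | e
  · obtain ⟨s, hs⟩ : ∃ s, (ν ^ 3) (C.x r s) = C.x r t := ⟨((E' r)⁻¹ : kˣ) * t, by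
      rw [h15.x, show (u ^ 3) r = r from e.2]
      simp⟩
    have h17 := DFunLike.congr_fun h14 (C.x r s)
    simp only [MulAut.mul_apply, hs, HB.nP, map_one, mul_one, map_mul, MulAut.conj_apply,
      ← (c2 e.1 (hν.mem_XR h16)).eq, ← (c1 e.1 h16).eq, mul_inv_cancel_right] at h17
    exact ⟨s, h17⟩
  · exact ⟨t, by rw [(c1 h12 e).eq, mul_inv_cancel_right]⟩
  · exact ⟨t, by rw [(c2 h12 e).eq, mul_inv_cancel_right]⟩

omit hν

theorem exists_H_tri (h3 : 3 ≠ p) (hγ : Nrm C p γ ρ E 0) (hρ : ∀ r, R.IsPos (ρ r) ↔ R.IsPos r)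
    (ho : ∀ w ∈ R.W, (R.α ((w * ρ) (R.simple 0)) 3 + R.α ((w * ρ) (R.simple 2)) 3) % 2 = 1)
    (ht : (MulAut.conj y * γ) ^ 3 = 1) {a : G} (h1 : a ∈ cfix (MulAut.conj y * γ))
    (h2 : a ^ 3 ∈ center G) (h4 : a ∉ center G) : ∃ g, g⁻¹ * y * γ g ∈ C.H := by
  have : Fact (Nat.Prime 3) := ⟨Nat.prime_three⟩
  have key : ∀ y g g', g'⁻¹ * (g⁻¹ * y * γ g) * γ g' = (g * g')⁻¹ * y * γ (g * g') := fun y g g' => by
    simp [mul_assoc]
  have hc : ∀ y g, (MulAut.conj y * γ) ^ 3 = 1 → (MulAut.conj (g⁻¹ * y * γ g) * γ) ^ 3 = 1 :=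
    fun y g e => by
      rw [← conj_twist, inv_conj_pow, e, mul_one, inv_mul_cancel]
  obtain ⟨g, c, rfl⟩ := h.cj_of_coprime (coprime_of_pow h h3 h2)
  replace h1 := mem_cfix_conj (θ := MulAut.conj g) h1
  rw [conj_twist] at h1
  suffices ∃ g', g'⁻¹ * (g⁻¹ * y * γ g) * γ g' ∈ C.H from this.elim fun g' e => ⟨_, key y g g' ▸ e⟩
  replace ht := hc y g ht
  generalize g⁻¹ * y * γ g = y at h1 ht
  obtain ⟨y₁, hy₁, n, w, hw, rfl, h5⟩ := hγ.exists_yn h h1 (mul_inv_cancel_left _ _).symm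
  obtain ⟨n', hn', v, -, hv, h6, h7⟩ := exists_nw_pos (C := C) (zcl_chr1 c)
    (isAut_of_mem_W hw.mem_W)
  obtain ⟨t, h8, z, hz, e⟩ := C.mem_H_sup_iff.1 (mul_mem hy₁ (inv_mem (mem_sup_right hn')))
  have h9 := ((nw_of_mem_H h8).mul hv).mul hw
  have h10 : y₁ * n = t * z * t⁻¹ * (t * n' * n) := by rw [eq_mul_of_mul_inv_eq e]; group
  replace hz := (mem_normalizer_iff.1 (C.H_le_normalizer _ h8) z).1 hz
  obtain ⟨_, h11⟩ := h9.exists_acts
  have h12 := hγ.conj h11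
  have h13 : ∀ r, R.chr c r = 1 → R.IsPos r → R.IsPos ((1 * v * w * ρ) r) := fun r hr hp =>
    h7 _ ((hρ r).2 hp) ((h5 r).trans (by rw [hr, one_pow]))
  rw [h10, map_mul, mul_assoc] at ht h1
  rw [h10]
  generalize t * z * t⁻¹ = z, t * n' * n = n, 1 * v * w = w at *
  have h14 : ∀ r, R.chr c ((w * ρ) r) = R.chr c r := fun r => by
    refine (h12.chr_of_cfix h ?_ r).trans (pow_one _)
    have h14 := mem_centralizer_singleton_iff.1 (h.centralizer_tor c ▸ mem_sup_right hz)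
    have := map_mem_center (MulAut.conj z⁻¹) h1
    rwa [map_mul, MulAut.mul_apply _ (MulAut.conj z), ← MulAut.mul_apply _ _ (MulAut.conj z),
      ← map_mul, inv_mul_cancel, map_one, MulAut.one_apply, MulAut.conj_apply, inv_inv,
      mul_assoc z⁻¹, ← (show Commute z _ from h14).inv_right.eq, inv_mul_cancel_left] at this
  have h15 : ∀ r, R.chr c r = 1 → (R.IsPos ((w * ρ) r) ↔ R.IsPos r) := fun r hr =>
    ⟨fun hp => not_not.1 fun h0 => isPos_neg_iff.1 (h12.neg r ▸ h13 _ ((zcl_chr1 c).neg hr)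
      (isPos_neg_iff.2 h0)) hp, h13 r hr⟩
  have hT : Tri R (w * ρ) := h12.tri h (by
    generalize MulAut.conj n * γ = ν, w * ρ = u at *
    obtain ⟨_, h16⟩ := h12.pow 3
    have h17 : ν ^ 3 = MulAut.conj (nP ν 3 z)⁻¹ * 1 := by
      rw [map_inv, mul_one, eq_inv_iff_mul_eq_one, mul_eq_one_comm, ← conj_mul_pow, ht]
    obtain ⟨_, h18⟩ := C.exists_acts_of_mem_H (mem_H_of_norm h.faithful (zcl_chr1 c)
      (mem_sup_right (inv_mem (nP_mem (fun _ => h12.mem_XS fun r => (h14 r).trans) hz 3)))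
      fun r hr τ => ⟨u (u (u r)), by simpa [h14] using hr, by
          rw [h15 _ (by simpa [h14] using hr), h15 _ (by simpa [h14] using hr), h15 _ hr],
          _, by simpa [h17, pow_three] using h16.x r τ⟩)
    simpa using h16.perm_eq h (h17 ▸ Nrm.one.conj h18)) (ho _ h9.mem_W)
  obtain ⟨⟨v, h16, h17⟩, h18⟩ := tri_cases hA hT (fun r => (chr_pow c 3 r).symm.trans
    ((tor_mem_center h).1 (by
      rw [conj_pow] at h2
      simpa [mul_assoc] using map_mem_center (MulAut.conj g⁻¹) h2) r)) h14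
    (fun e => h4 (by simpa using map_mem_center (MulAut.conj g) ((tor_mem_center h).2 e))) h13
  obtain ⟨g, hg⟩ : ∃ g, g⁻¹ * z * (MulAut.conj n * γ) g ∈ C.H := by
    rcases h18 with h18 | ⟨b, h18, h19, h20, h21⟩
    · exact exists_H_fix h h12 h3 (zcl_chr1 c) h18 (mem_sup_right hz) ht
    · exact exists_H_perm hA h h12 (zcl_chr1 c) h19 h20 (hT.cube b) h18 h21 hz ht
  obtain ⟨m, hm⟩ := C.exists_nw_of_mem_W h16
  have h19 := (hm.mul ((nw_of_mem_H hg).mul h9)).mul (hγ.nw hm.inv)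
  refine ⟨g * m⁻¹, key _ _ _ ▸ NW.mem_H (eq_one_of_pos h19.mem_W (fun i => ?_) ▸ ?_)⟩
  · simpa using h17 _ ((hρ _).1 (by simpa using isPos_simple i) : R.IsPos (ρ⁻¹ (R.simple i)))
  · simpa [mul_assoc] using h19

end Cfsg.Lib.LB
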