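import Cfsg.Agent.Lib.LB.Top

/-! # Graph automorphisms of prime order -/

set_option autoImplicit false
set_option linter.unusedSectionVars false

namespace Cfsg.Lib.LB

open Finset Cfsg.Lib.Chev Cfsg.Lib.Chev.RootSys Cfsg.Lib.Chev.PreSys Cfsg.Lib.Chev.ChevSys
  Cfsg.Lib.Alg Equiv Cfsg.Lib.HB Cfsg.Lib.KO Cfsg.Lib.Root Subgroup Cfsg.Lib.Twisted Cfsg.Lib.AbS
  Cfsg.Lib.St
open Cfsg.Lib.KI hiding Nrm Dat

variable {ι Φ : Type} [Fintype ι] [DecidableEq ι] {R : RootSys ι Φ} {k : Type*} [Field k]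
  {G : Type*} [Group G] {C : ChevSys R k G} [Fintype Φ] {p l m : ℕ} {φ β : MulAut G}
  [hp : Fact p.Prime] [CharP k p] [IsAlgClosed k] [hl : Fact l.Prime]

variable (C p l) in
/-- the hypothesis on graph automorphisms in `main` -/
def HG (σ : MulAut G) : Prop :=
  ∀ β π a t, Dg C p β π a → π ≠ 1 → β ^ l = 1 → Commute β σ → t ∈ cfix β →
    t ^ l ∈ center G → t ∉ center G → GA C p l σ β

variable {T : ChevTab R} (h : C.Alg T p φ) (hc : R.Conn) [Nonempty ι] {π : Perm ι} {a : ι → ℤ}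
include h hc

theorem exists_sa (h1 : Dg C p β π a) (h2 : β ^ l = 1) : ∃ y γ ρ e, β = MulAut.conj y * γ ∧
    SA C p γ π 0 ∧ γ ^ l = 1 ∧ π ^ l = 1 ∧ Nrm C p γ ρ e 0 ∧ (∀ r, R.IsPos (ρ r) ↔ R.IsPos r) ∧
    (∀ i, ρ (R.simple i) = R.simple (π i)) ∧ ∀ i j, R.A (π i) (π j) = R.A i j := by
  obtain ⟨h3, h4⟩ := (h2 ▸ h1.pow l).unique h (.of_sa .one)
  have h5 : ∀ i, a i = (0 : ℕ) := fun i => by
    have h5 := congrFun h4 i
    rw [← Nat.sub_add_cancel hl.out.one_le, sum_range_succ', pow_zero, Perm.one_apply,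
      Pi.zero_apply] at h5
    rcases lt_trichotomy (a i) 0 with e | e | e
    · have := sum_nonpos (s := range (l - 1)) fun j _ => show a ((π ^ (j + 1)) i) ≤ 0 by
        have := h1.le h hc ((π ^ (j + 1)) i) i
        omega
      omega
    · exact e
    · have := sum_nonneg (s := range (l - 1)) fun j _ => show 0 ≤ a ((π ^ (j + 1)) i) by
        have := h1.le h hc i ((π ^ (j + 1)) i)
        omega
      omega
  obtain ⟨y, γ, h1, e⟩ := h1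
  replace h1 := h1.congr rfl h5
  obtain ⟨ρ, E, m, h6, h7, h8, -, -, h9⟩ := h1.nrm h.faithful
  replace h6 := h6.congr rfl rfl (m' := 0) fun r => (h9 r).elim fun _ => id
  exact ⟨y, γ, ρ, E, e, h1, ((h1.pow l).congr h3 (by simp)).eq h.top .one, h3, h6, h7, h8,
    fun i j => by
      simpa [h8, pair_simple_simple] using h6.pair h.faithful h.hMul (R.simple i) (R.simple j)⟩

theorem hg_of_rigid {σ : MulAut G}
    (hπ : ∀ π : Perm ι, (∀ i j, R.A (π i) (π j) = R.A i j) → π = 1) : HG C p l σ :=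
  fun _ π _ _ h1 h2 h3 _ _ _ _ =>
    let ⟨_, _, _, _, _, _, _, _, _, _, _, h4⟩ := exists_sa h hc h1 h3
    (h2 (hπ π h4)).elim

theorem ga_two (hR : Rep C p) (hlp : 2 ≠ p) (hm : 0 < m) (hL' : ∀ r s, R.ln r = R.ln s)
    (h1 : Dg C p β π a) (h2 : β ^ 2 = 1) (h3 : Commute β (φ ^ m)) (hT : Ty R 2 π)
    (hπ : ∀ π' : Perm ι, (∀ i j, R.A (π' i) (π' j) = 0 ↔ R.A i j = 0) → Commute π' π →
      ∃ j : ℕ, π' * π ^ j = 1) : GA C p 2 (φ ^ m) β := by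
  have := Fact.mk Nat.prime_two
  obtain ⟨y, γ, ρ, E, rfl, h4, h5, -, h6, h7, h8, h9⟩ := exists_sa h hc h1 h2
  have h10 : ∀ i, (symOf ρ h7 h6.refl).π i = π i := fun i =>
    R.simple_injective (((symOf ρ h7 h6.refl).ρ_simple i).symm.trans (h8 i))
  obtain ⟨g, hg⟩ := exists_mem_H h7 h hlp.symm h6 (isAut_sym (Y := symOf ρ h7 h6.refl)
    (by simpa only [h10] using h9) fun i => hL' _ _) (sq γ ▸ h5) (a := y) (conj_eq_one_iff'.1 (by
      rw [← h2, sq, KO.conj_mul_conj, ← sq γ, h5, mul_one]))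
  exact ga_graph h hc hm h1 h2 h3 (gp_of_H h hc hR hlp hL' hT h4 hg h2) hπ

set_option synthInstance.maxSize 1000 in
omit h hc in
theorem hg_D4 {R : RootSys (Fin 4) Φ} {C : ChevSys R k G} {T : ChevTab R} (h : C.Alg T p φ)
    (hc : R.Conn) (hA : IsD4 R) (hR : Rep C p) (hlp : l ≠ p) (hm : 0 < m) : HG C p l (φ ^ m) := by
  intro β π a t h1 h2 h3 h4 h5 h6 h7
  have key : ∀ π : Perm (Fin 4), (∀ i j, R.A (π i) (π j) = R.A i j) → π ≠ 1 →
      (π ^ 2 = 1 ∧ Ty R 2 π ∨ π ^ 3 = 1 ∧ Ty R 3 π) ∧ ∀ π' : Perm (Fin 4),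
      (∀ i j, R.A (π' i) (π' j) = 0 ↔ R.A i j = 0) → π' * π = π * π' → ∃ j < 3, π' * π ^ j = 1 := by
    simp only [Ty, show R.A = _ from hA]
    decide +kernel
  obtain ⟨y, γ, ρ, E, e, h8, -, h9, h10, h11, h12, h13⟩ := exists_sa h hc h1 h3
  obtain ⟨h14, h15⟩ := key π h13 h2
  replace h15 := fun π' e1 (e2 : Commute π' π) => (h15 π' e1 e2).imp fun _ => And.right
  have h16 : ∀ n, n.Prime → π ^ n = 1 → l = n := fun n hn e =>
    (Nat.prime_dvd_prime_iff_eq hl.out hn).1 (orderOf_eq_prime h9 h2 ▸ orderOf_dvd_of_pow_eq_one e)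
  rcases h14 with ⟨h14, hT⟩ | ⟨h14, hT⟩
  · obtain rfl := h16 2 Nat.prime_two h14
    exact ga_two h hc hR hlp hm hA.ln h1 h3 h4 hT h15
  · obtain rfl := h16 3 Nat.prime_three h14
    subst e
    obtain ⟨g, hg⟩ := exists_H_tri hA h hlp h10 h11 (fun w hw => hA.odd hw h12 h13 h14 h2) h3 h5 h6 h7
    exact ga_graph h hc hm h1 h3 h4 (gp_of_H h hc hR hlp hA.ln hT h8 hg h3) h15

theorem hg_two (hR : Rep C p) (hlp : l ≠ p) (hm : 0 < m) (hL' : ∀ r s, R.ln r = R.ln s)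
    {π₁ : Perm ι} (h1 : π₁ ^ 2 = 1) (hT : Ty R 2 π₁)
    (hπ : ∀ π : Perm ι, (∀ i j, R.A (π i) (π j) = 0 ↔ R.A i j = 0) → π = 1 ∨ π = π₁) :
    HG C p l (φ ^ m) := by
  intro β π a t h2 h3 h4 h5 _ _ _
  obtain rfl := (hπ π (h2.bond h)).resolve_left h3
  obtain rfl : l = 2 := (Nat.prime_dvd_prime_iff_eq hl.out Nat.prime_two).1 (orderOf_eq_prime
    ((h4 ▸ h2.pow l).unique h (.of_sa .one)).1 h3 ▸ orderOf_dvd_of_pow_eq_one h1)
  exact ga_two h hc hR hlp hm hL' h2 h4 h5 hT fun π' e _ => (hπ π' e).elim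
    (fun e => ⟨0, by simp [e]⟩) fun e => ⟨1, by rw [e, pow_one, ← sq, h1]⟩

end Cfsg.Lib.LB
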