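import Cfsg.Agent.Lib.LB.Nf

/-! # Weyl group elements compatible with a graph automorphism -/

set_option autoImplicit false
set_option linter.unusedSectionVars false

namespace Cfsg.Lib.LB

open Finset Cfsg.Lib.Chev Cfsg.Lib.Chev.RootSys Cfsg.Lib.Chev.PreSys Cfsg.Lib.Chev.ChevSys
  Cfsg.Lib.Alg Equiv Cfsg.Lib.HB Cfsg.Lib.KO
open Cfsg.Lib.KI hiding Nrm

variable {ι Φ : Type} [Fintype ι] [DecidableEq ι] {R : RootSys ι Φ} {k : Type*} [Field k]
  {G : Type*} [Group G] {C : ChevSys R k G} [Fintype Φ] {p l : ℕ}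

variable (R) in
/-- the diagram symmetries that are treated -/
def Ty (l : ℕ) (π : Perm ι) : Prop := π ≠ 1 ∧
  ((l = 2 ∧ (∀ i, R.A i (π i) ≠ -1) ∧ ∃ a b, R.A a b = -1 ∧ ∀ i, π i = i ↔ i = a ∨ i = b) ∨
    (l = 3 ∧ ∃ a, ∀ i, π i = i ↔ i = a))

theorem pair_le_one (hL : ∀ r s, R.ln r = R.ln s) {r s : Φ} (h : s ≠ r) : R.pair r s ≤ 1 :=
  not_lt.1 fun e => h (eq_of_pair_two (hL _ _) e)

theorem neg_one_le_pair (hL : ∀ r s, R.ln r = R.ln s) {r s : Φ} (h : s ≠ R.neg r) :
    -1 ≤ R.pair r s := by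
  have := pair_le_one hL h
  rw [pair_neg_left] at this
  omega

theorem pair_of_ht (hL : ∀ r s, R.ln r = R.ln s) {r s : Φ} (h : s ≠ r) (e : R.ht s = R.ht r) :
    R.pair r s = 0 ∨ R.pair r s = -1 := by
  have h1 := pair_le_one hL h
  have h2 := neg_one_le_pair hL (r := r) (s := s) fun e' => R.ht_ne_zero r (by
    rw [e', R.ht_neg] at e
    omega)
  have h3 := R.ht_ne_zero (R.refl r s)
  rw [ht_refl, e] at h3
  have : R.pair r s ≠ 1 := fun e => h3 (by rw [e]; ring)
  omega

theorem orth_of_ty (hL : ∀ r s, R.ln r = R.ln s) {ρ : Perm Φ} (ha : R.IsAut ρ)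
    (hp : ∀ r, R.IsPos (ρ r) ↔ R.IsPos r) (h1 : ρ ^ l = 1) {π : Perm ι}
    (hπ : ∀ i, ρ (R.simple i) = R.simple (π i)) (hT : Ty R l π) (r : Φ) (i : ℕ)
    (hr : (ρ ^ i) r ≠ r) : R.pair r ((ρ ^ i) r) = 0 := by
  have h2 := ht_aut ha hp
  rw [pow_eq_pow_mod i h1] at hr ⊢
  rcases hT.2 with ⟨rfl, h3, -⟩ | ⟨rfl, -⟩
  · have h4 : ∀ r, ρ (ρ r) = r := fun r => congrArg (· r) ((sq ρ).symm.trans h1)
    have h5 : ∀ r, 2 ∣ R.pair r (ρ r) := fun r => by
      induction r using induction_root (R := R) with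
      | simple j =>
        rw [hπ, pair_simple_simple]
        rcases eq_or_ne (π j) j with e | e
        · rw [e, R.A_diag]
        · have := pair_of_ht hL (R.simple_injective.ne e) (by rw [R.ht_simple, R.ht_simple])
          rw [pair_simple_simple] at this
          rw [this.resolve_right (h3 j)]
          exact dvd_zero _
      | step j r ih =>
        have h6 : 2 ∣ R.pair (R.simple j) (ρ (R.simple j)) := by
          rw [hπ, pair_simple_simple]
          rcases eq_or_ne (π j) j with e | e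
          · rw [e, R.A_diag]
          · have := pair_of_ht hL (R.simple_injective.ne e) (by rw [R.ht_simple, R.ht_simple])
            rw [pair_simple_simple] at this
            rw [this.resolve_right (h3 j)]
            exact dvd_zero _
        have h7 : R.pair (R.simple j) (ρ r) = R.pair r (ρ (R.simple j)) := by
          rw [← ha.pair, h4, pair_comm_of_ln (hL _ _)]
        rw [← refl_simple, ha.refl, pair_refl_left, pair_refl, pair_refl, pair_refl, ha.pair, h7,
          pair_comm_of_ln (hL r (R.simple j))]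
        obtain ⟨a, ha⟩ := ih
        obtain ⟨b, hb⟩ := h6
        rw [ha, hb]
        exact ⟨a - R.pair (R.simple j) r * R.pair r (ρ (R.simple j)) +
          R.pair (R.simple j) r * b * R.pair (R.simple j) r, by ring⟩
    have h6 := Nat.mod_lt i two_pos
    generalize i % 2 = j at *
    interval_cases j
    · exact (hr rfl).elim
    · have := pair_of_ht hL hr (h2 r)
      have := h5 r
      rw [pow_one] at *
      omega
  · have h4 : ∀ r, ρ (ρ (ρ r)) = r := fun r => congrArg (· r) ((pow_three ρ).symm.trans h1)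
    have h5 : ∀ r, ρ r ≠ r → R.pair r (ρ r) = 0 := fun r hr =>
      (pair_of_ht hL hr (h2 r)).resolve_right fun e => by
        have h6 : R.pair (ρ (ρ r)) (R.refl r (ρ r)) = -2 := by
          rw [pair_refl, e, ← ha.pair _ r, h4, e, ha.pair, pair_comm_of_ln (hL _ r), e]
          rfl
        have h7 := neg_one_le_pair hL (r := ρ (ρ r)) (s := R.refl r (ρ r)) fun e' => by
          have := congrArg R.ht e'
          rw [ht_refl, R.ht_neg, e, h2, h2, h2] at this
          exact R.ht_ne_zero r (by omega)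
        omega
    have h6 := Nat.mod_lt i three_pos
    generalize i % 3 = j at *
    interval_cases j
    · exact (hr rfl).elim
    · exact h5 r hr
    · have h7 : ρ r ≠ r := fun e => hr (by simp [sq, e])
      rw [sq, Perm.mul_apply, ← ha.pair, h4, pair_comm_of_ln (hL _ _), h5 r h7]

theorem gd_of {f : (ι → ℤ) →+ ℤ} (hf : ∀ r, 0 < f (R.α r) → R.IsPos r) {n : ℤ} (hn : 0 < n) :
    Gd R {r | n ≤ f (R.α r)} {r | f (R.α r) = n} := by
  have key : ∀ a, n ≤ f (R.α a) → ∀ b, n ≤ f (R.α b) → ∀ c, R.Between a b c → n < f (R.α c) :=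
    fun a ha b hb c e => by
      have := e.le (f := f) (by omega) (by omega)
      omega
  exact ⟨fun a ha b hb c e => (key a ha b hb c e).le, fun r hr => hf r (hn.trans_le hr),
    fun r hr => Eq.ge hr, fun a ha b hb c e hc => (key a ha b hb c e).ne' hc⟩

section Grading

variable {ρ : Perm Φ} (ha : R.IsAut ρ) {π : Perm ι} (hπ : ∀ i, ρ (R.simple i) = R.simple (π i))
include ha hπ

theorem α_perm (r : Φ) (i : ι) : R.α (ρ r) (π i) = R.α r i := by
  simp [lin_of_refl ha.refl ha.pair r, hπ, R.α_simple, Pi.single_apply]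

theorem fJ_perm (r : Φ) : fJ {i | π i = i} (R.α (ρ r)) = fJ {i | π i = i} (R.α r) := by
  classical
  refine (Equiv.sum_comp π _).symm.trans (sum_congr rfl fun i _ => ?_)
  simp [α_perm ha hπ]

theorem ne_of_fJ {r : Φ} (h : fJ {i | π i = i} (R.α r) = 1) : ρ r ≠ r := fun e => by
  classical
  obtain ⟨h1, h2⟩ := fJ_pos_iff.1 (h ▸ one_pos)
  obtain ⟨i, h3, h4⟩ : ∃ i, π i ≠ i ∧ R.α r i ≠ 0 := by simpa [InJ] using h2
  have h5 := α_perm ha hπ r i
  have h6 := sum_le_sum_of_subset_of_nonneg (subset_univ {i, π i}) (f := fun j =>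
    if j ∈ {i | π i = i} then 0 else R.α r j) fun j _ _ => by split_ifs; exacts [le_rfl, h1 j]
  rw [sum_pair h3.symm, if_neg (by exact h3), if_neg (by exact π.injective.ne h3)] at h6
  rw [e] at h5
  have := h1 i
  have h7 : _ ≤ (1 : ℤ) := h6.trans_eq (by rw [← h]; exact sum_congr rfl fun _ _ => by congr)
  omega

end Grading

namespace Gph

variable [Fact p.Prime] [CharP k p] [hl : Fact l.Prime] {θ : MulAut G} {ρ : Perm Φ} {e : Φ → kˣ}
  (h : Gph C p l θ ρ e)
include h

theorem e_refl {r s : Φ} (h1 : ρ r = r) (h2 : ρ s = s) :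
    e (R.refl r s) = e s * e r ^ (-R.pair r s) := by
  have h3 := congrArg θ ((C.acts_n r 1).conj s 1)
  rw [map_mul, map_mul, map_inv, h.nrm.n, h.nrm.x, h.nrm.x, h.nrm.refl, h1, h2,
    (C.acts_n _ _).conj] at h3
  have h4 := h.F.x_inj h3
  simp only [Pi.zero_apply, pow_zero, pow_one, mul_one, one_zpow, one_mul] at h4
  exact mul_right_cancel (b := C.eta r s) (Units.ext (by
    rw [Units.val_mul, ← h4]
    simp only [Units.val_mul]
    ring))

theorem e_pow {r : Φ} (h1 : ρ r = r) : e r ^ l = 1 := by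
  have : ∀ n : ℕ, (θ ^ n) (C.x r 1) = C.x r (e r ^ n : kˣ) := fun n => by
    induction n with
    | zero => simp
    | succ n ih => simp [pow_succ', ih, h.nrm.x, h1]
  exact Units.ext (h.F.x_inj ((this l).symm.trans (by rw [h.pow]; rfl)))

variable {π : Perm ι} (hπ : ∀ i, ρ (R.simple i) = R.simple (π i)) (hT : Ty R l π)
include hπ

theorem fix_simple {i : ι} : ρ (R.simple i) = R.simple i ↔ π i = i := by
  rw [hπ, R.simple_injective.eq_iff]

theorem ρ_sref {a : ι} (ha : π a = a) (r : Φ) : ρ (R.sref a r) = R.sref a (ρ r) := by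
  rw [← refl_simple, h.aut.refl, hπ, ha]

include hT

theorem w_cases {w : Perm Φ} (hw : w ∈ R.W) (h1 : ∀ r, R.IsPos r → Act ρ e r → R.IsPos (w r))
    (h2 : ∀ r, Act ρ e (w r) ↔ Act ρ e r) :
    w = 1 ∨ l = 3 ∧ ∃ a, π a = a ∧ e (R.simple a) ≠ 1 ∧ w = R.sref a := by
  let P : Perm Φ → Prop := fun w => w ∈ R.W ∧ ∀ r, R.IsPos r → ρ r ≠ r → R.IsPos (w r)
  have p1 : P w := ⟨hw, fun r h3 h4 => h1 r h3 (h4 · |>.elim)⟩
  have p2 : ∀ w a, P w → π a = a → P (w * R.sref a) := fun w a h3 h4 =>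
    ⟨mul_mem h3.1 (R.sref_mem_W a), fun r h5 h6 => h3.2 _
      (h5.sref fun e => h6 (e ▸ (h.fix_simple hπ).2 h4))
        fun e => h6 ((R.sref a).injective (h.ρ_sref hπ h4 r ▸ e))⟩
  have p3 : ∀ w, P w → (∀ i, π i = i → R.IsPos (w (R.simple i))) → w = 1 := fun w h3 h4 =>
    eq_one_of_pos h3.1 fun i => (em (π i = i)).elim (h4 i) fun h5 =>
      h3.2 _ (isPos_simple i) (mt (h.fix_simple hπ).1 h5)
  have p4 : ∀ w ∈ R.W, ∀ a, ¬ R.IsPos (w (R.simple a)) →
      R.IsPos ((w * R.sref a) (R.simple a)) := fun w hw a h3 => by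
    rwa [Perm.mul_apply, sref_simple, (isAut_of_mem_W hw).neg, isPos_neg_iff]
  have p5 : ∀ a, ¬ R.IsPos (w (R.simple a)) → e (R.simple a) ≠ 1 := fun a h3 h4 =>
    h3 (h1 _ (isPos_simple a) fun _ => h4)
  rcases hT.2 with ⟨rfl, -, a, b, h3, h4⟩ | ⟨rfl, a, h3⟩
  · left
    have key : ∀ a b, R.A a b = -1 → (∀ i, π i = i ↔ i = a ∨ i = b) →
        R.IsPos (w (R.simple a)) := fun a b h3 h4 => by
      by_contra h5
      have ha := (h4 a).2 (.inl rfl)
      have hb := (h4 b).2 (.inr rfl)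
      have ha' := (h.fix_simple hπ).2 ha
      have hb' := (h.fix_simple hπ).2 hb
      have h6 := p5 a h5
      have h7 : R.A b a = -1 := by
        rwa [← pair_simple_simple, pair_comm_of_ln (h.ln _ _), pair_simple_simple]
      have h8 : R.α (R.sref a (R.simple b)) = (1 : ℤ) • R.α (R.simple a) + (1 : ℤ) • R.α (R.simple b) := by
        rw [α_sref', pair_simple_simple, h3]; module
      have h9 : R.sref b (R.simple a) = R.sref a (R.simple b) :=
        R.α_inj (by rw [h8, α_sref', pair_simple_simple, h7]; module)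
      have h10 : e (R.sref a (R.simple b)) = e (R.simple b) * e (R.simple a) := by
        rw [← refl_simple, h.e_refl ha' hb', pair_simple_simple, h3]
        simp
      have h11 : ρ (R.sref a (R.simple b)) = R.sref a (R.simple b) := by rw [h.ρ_sref hπ ha, hb']
      have h12 : ∀ r, ρ r = r → e r ≠ 1 → e r = -1 := fun r h12 h13 => Units.ext
        ((mul_self_eq_one_iff.1 (congrArg Units.val ((sq _).symm.trans (h.e_pow h12)))).resolve_left
          fun e => h13 (Units.ext e))
      have h13 : R.IsPos (R.sref a (R.simple b)) := (isPos_simple b).sref fun e => by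
        rw [R.simple_injective e, R.A_diag] at h3
        omega
      have h14 : e (R.simple b) ≠ 1 → R.IsPos (w (R.sref a (R.simple b))) := fun h14 =>
        h1 _ h13 fun _ => by rw [h10, h12 _ ha' h6, h12 _ hb' h14]; simp
      have h15 := ht_comb ((isAut_of_mem_W hw).comb.2 h8)
      have h16 : R.IsPos (w (R.simple b)) := by
        by_contra h16
        have := (h14 (p5 b h16)).ht_pos
        have := isPos_iff_ht.not.1 h5
        have := isPos_iff_ht.not.1 h16
        omega
      by_cases h17 : R.IsPos (w (R.sref a (R.simple b)))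
      · have h18 := p3 _ (p2 w a p1 ha) fun i hi => by
          rcases (h4 i).1 hi with rfl | rfl
          exacts [p4 w hw _ h5, h17]
        have h19 := h2 (R.simple b)
        rw [eq_inv_of_mul_eq_one_left h18, sref_inv, Act, Act, h10] at h19
        by_cases h20 : e (R.simple b) = 1
        · exact h6 (by simpa [h20] using h19.2 (fun _ => h20) h11)
        · exact h20 (h19.1 (fun _ => by rw [h12 _ ha' h6, h12 _ hb' h20]; simp) hb')
      · have h18 := p3 _ (p2 _ b (p2 w a p1 ha) hb) fun i hi => by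
          rcases (h4 i).1 hi with rfl | rfl
          · rwa [Perm.mul_apply, Perm.mul_apply, h9, sref_sref]
          · exact p4 _ (p2 w a p1 ha).1 _ h17
        have h19 := h2 (R.simple b)
        rw [mul_assoc] at h18
        rw [eq_inv_of_mul_eq_one_left h18, mul_inv_rev, sref_inv, sref_inv, Perm.mul_apply, ← h9,
          sref_sref] at h19
        exact h6 (h19.2 (fun _ => not_not.1 (mt h14 h17)) ha')
    refine p3 w p1 fun i hi => ?_
    rcases (h4 i).1 hi with rfl | rfl
    · exact key _ b h3 h4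
    · exact key _ a (by rwa [← pair_simple_simple, pair_comm_of_ln (h.ln _ _), pair_simple_simple])
        fun i => (h4 i).trans or_comm
  · by_cases h4 : R.IsPos (w (R.simple a))
    · exact .inl (p3 w p1 fun i hi => (h3 i).1 hi ▸ h4)
    · have ha := (h3 a).2 rfl
      refine .inr ⟨rfl, a, ha, p5 a h4, ?_⟩
      rw [eq_inv_of_mul_eq_one_left (p3 _ (p2 w a p1 ha) fun i hi => (h3 i).1 hi ▸ p4 w hw a h4),
        sref_inv]

omit hT in
theorem exists_fixed {x : Perm Φ}
    (hx : x = 1 ∨ l = 3 ∧ ∃ a, π a = a ∧ e (R.simple a) ≠ 1 ∧ x = R.sref a)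
    (h2 : ∀ r, Act ρ e (x r) ↔ Act ρ e r) {r : Φ} (h3 : R.IsPos r) (h4 : Act ρ e r) :
    ∃ δ, R.IsPos δ ∧ Act ρ e δ ∧ x δ = δ ∧ ∀ w, R.IsAut w → Commute ρ w → Commute x w →
      ¬ R.IsPos (w r) → ¬ R.IsPos (w δ) := by
  by_cases h5 : x r = r
  · exact ⟨r, h3, h4, h5, fun _ _ _ _ => id⟩
  obtain ⟨rfl, a, ha, h6, rfl⟩ := hx.resolve_left fun e => h5 (by rw [e]; rfl)
  have ha' := (h.fix_simple hπ).2 ha
  have h7 : r ≠ R.simple a := fun e => h6 (e ▸ h4 (e ▸ ha'))
  have h8 := pair_le_one h.ln h7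
  have h9 := neg_one_le_pair h.ln ((isPos_simple a).ne_neg h3)
  have h10 : R.pair (R.simple a) r ≠ 0 := fun e => h5 (by rw [← refl_simple, refl_eq_self e])
  have h11 : ρ r ≠ r := fun e' => by
    have h11 := (h2 r).2 h4 (by rw [h.ρ_sref hπ ha, e'])
    rw [← refl_simple, h.e_refl ha' e', h4 e', one_mul] at h11
    rcases (by omega : R.pair (R.simple a) r = 1 ∨ R.pair (R.simple a) r = -1) with e | e <;>
      exact h6 (by simpa [e] using h11)
  have h12 : R.pair r (ρ (R.sref a r)) = -1 := by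
    have := h.orth r 1 h11
    rw [pow_one] at this
    rw [h.ρ_sref hπ ha, ← refl_simple, pair_refl, this, ← ha', h.aut.pair, ha',
      pair_comm_of_ln (h.ln r _)]
    rcases (by omega : R.pair (R.simple a) r = 1 ∨ R.pair (R.simple a) r = -1) with e | e <;>
      simp [e]
  have h13 : R.α (R.refl r (ρ (R.sref a r))) = (1 : ℤ) • R.α r + (1 : ℤ) • R.α (ρ (R.sref a r)) := by
    rw [α_refl, h12]; module
  have h14 : ∀ s, R.α (ρ (R.sref a s)) = R.α (ρ s) - R.pair (R.simple a) s • R.α (R.simple a) :=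
    fun s => by rw [h.ρ_sref hπ ha, α_sref', ← h.aut.pair _ s, ha']
  refine ⟨R.refl r (ρ (R.sref a r)), isPos_iff_ht.2 ?_, fun e' => (h11 ?_).elim, R.α_inj ?_,
    fun w h15 h16 h17 h18 => isPos_iff_ht.not.2 ?_⟩
  · have := ((h.pos _).2 (h3.sref h7)).ht_pos
    have := h3.ht_pos
    rw [ht_comb h13]
    omega
  · have h15 := h.aut.comb.2 h13
    have h18 := h14 (ρ r)
    rw [← h.ρ_sref hπ ha r, ← ha', h.aut.pair, ha'] at h18
    rw [e', h13, h14, h18] at h15
    have h16 : ρ (ρ r) = r := R.α_inj (by linear_combination (norm := module) -h15)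
    have h17 : ρ (ρ (ρ r)) = r := congrArg (· r) ((pow_three ρ).symm.trans h.ρ_pow)
    rwa [h16] at h17
  · rw [(R.isAut_sref a).comb.2 h13, h13, ← h.ρ_sref hπ ha, sref_sref, h14, α_sref']
    module
  · have h19 : ¬ R.IsPos (w (ρ (R.sref a r))) := by
      rw [← Perm.mul_apply, ← h16.eq, Perm.mul_apply, h.pos, ← Perm.mul_apply, ← h17.eq,
        Perm.mul_apply, isPos_sref_iff (fun e => h18 (by rw [e]; exact isPos_simple a)) fun e => h11 ?_]
      · exact h18
      · refine w.injective ?_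
        rw [← Perm.mul_apply, ← h16.eq, Perm.mul_apply, e, h.fix_neg.2 ha']
    have := isPos_iff_ht.not.1 h18
    have := isPos_iff_ht.not.1 h19
    rw [ht_comb (h15.comb.2 h13)]
    omega

end Gph

end Cfsg.Lib.LB
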